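import Cfsg.Agent.H899.Cyc.Fac
import Cfsg.Agent.H57.BG.Pair
import Cfsg.Agent.NotCT.Orders
import Cfsg.Agent.H537.CopDefs

/-!
# `NoFac` for the sporadic groups: the two engines (helper354, S3679)

* `noFac_of_pair` : two primes `r`, `s` dividing `|T|` exactly once, elements of order `r` self-centralizing, and no
  non-abelian simple group of order divisible by `r s` in a proper subgroup;
* `noFac_of_half` : no non-abelian simple group has an order whose square divides `|T|`;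
* `Fac.exists_name` : the names for the top of `M`.
-/

set_option autoImplicit false
set_option maxRecDepth 100000

namespace Cfsg.Agent.H354.Fac

open Subgroup
open Cfsg.Agent.OrdDiv
open Cfsg.Agent.H899.CG
open Cfsg.Agent.H257.El (Known okPair surv Top chkPair noOrd_of_cent noOrd_congr noOrd_of_noComm)

theorem noFac_of_noOrd (tab : OrderTable.{0}) (known : Known.{0}) {T : Type} [Group T] {n : ℕ} {l : List (ℕ × ℕ)}
    {r s : ℕ} (hn : Nat.card T = n) (h0 : n ≠ 0) (hr : r.Prime) (hs : s.Prime) (hno : ∀ z : T, orderOf z ≠ r * s)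
    (hchk : chkPair n l r s = true) (hrn : r ∣ n) (hr2 : ¬ r ^ 2 ∣ n) (hsn : s ∣ n) (hs2 : ¬ s ^ 2 ∣ n) : NoFac T := by
  have : Finite T := Nat.finite_of_card_ne_zero (by rw [hn]; exact h0)
  intro S _ _ _ _ A M k hM hF
  subst hn
  exact Cfsg.Agent.H57.BG.not_both tab known rfl hr hs hno hchk hM.1
    (hF.dvd (cyc_of_sq hr hrn hr2).1) (hF.dvd (cyc_of_sq hs hsn hs2).1)

theorem noFac_of_pair (tab : OrderTable.{0}) (known : Known.{0}) {T : Type} [Group T] {n : ℕ} {l : List (ℕ × ℕ)}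
    {r s : ℕ} (hn : Nat.card T = n) (h0 : n ≠ 0) (hr : r.Prime) (hs : s.Prime) (hrs : r ≠ s)
    (hsc : Cfsg.Agent.H537.Cop.SC r T) (hchk : chkPair n l r s = true) (hrn : r ∣ n) (hr2 : ¬ r ^ 2 ∣ n) (hsn : s ∣ n)
    (hs2 : ¬ s ^ 2 ∣ n) : NoFac T := by
  have : Finite T := Nat.finite_of_card_ne_zero (by rw [hn]; exact h0)
  exact noFac_of_noOrd tab known hn h0 hr hs (noOrd_of_cent hr hsc hs hrs) hchk hrn hr2 hsn hs2

/-- `a ^ 2 ∣ m ^ 2 d`, `d` square free: `a ∣ m` -/
theorem dvd_of_sq_dvd {a m d : ℕ} (hm : m ≠ 0) (hd : Squarefree d) (h : a ^ 2 ∣ m ^ 2 * d) : a ∣ m := by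
  have hg : Nat.gcd a m ∣ m := Nat.gcd_dvd_right a m
  have hgp : 0 < Nat.gcd a m := Nat.gcd_pos_of_pos_right a (Nat.pos_of_ne_zero hm)
  obtain ⟨a', m', hc, ha, hm'⟩ := Nat.exists_coprime a m
  set g := Nat.gcd a m with hgdef
  have h1 : a' ^ 2 * g ^ 2 ∣ m' ^ 2 * d * g ^ 2 := by
    have h2 : a ^ 2 = a' ^ 2 * g ^ 2 := by rw [ha, mul_pow]
    have h3 : m ^ 2 * d = m' ^ 2 * d * g ^ 2 := by rw [hm', mul_pow]; ring
    rwa [← h2, ← h3]
  have h2 : a' ^ 2 ∣ m' ^ 2 * d := Nat.dvd_of_mul_dvd_mul_right (pow_pos hgp 2) h1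
  have h3 : a' ^ 2 ∣ d := (Nat.Coprime.pow 2 2 hc).dvd_of_dvd_mul_left h2
  have h4 : IsUnit a' := hd a' (by rwa [← pow_two])
  rw [Nat.isUnit_iff] at h4
  rw [ha, h4, one_mul]
  exact hg

/-- no non-abelian simple group of order `a` with `a ^ 2 ∣ |T|` -/
theorem noFac_of_half (tab : OrderTable.{0}) (known : Known.{0}) {T : Type} [Group T] {n m d : ℕ} {l : List (ℕ × ℕ)}
    (hn : Nat.card T = n) (hnm : n = m ^ 2 * d) (hm : m ≠ 0) (hd : Squarefree d) (hv : OrdDiv.valid l m = true)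
    (hc : (cands l m).isEmpty = true) : NoFac T := by
  intro S _ _ hS hna A M k hM hF
  have h1 : Nat.card S ^ 2 ∣ m ^ 2 * d := by
    rw [← hnm, ← hn]
    exact (pow_dvd_pow _ hF.two_le).trans hF.pow_dvd_card
  have h2 := dvd_of_sq_dvd hm hd h1
  obtain ⟨g, hg, -⟩ := exists_good tab (known S) (fun h => hna ⟨⟨h⟩⟩) hv h2
  rw [List.isEmpty_iff] at hc
  rw [hc] at hg
  simp at hg

/-- **the possible names** for `M` -/
theorem exists_name (tab : OrderTable.{0}) (known : Known.{0}) {T : Type} [Group T] [Finite T] {n : ℕ}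
    {l : List (ℕ × ℕ)} {r s : ℕ} (hn : Nat.card T = n) (hv : OrdDiv.valid l n = true) (hr : r.Prime) (hs : s.Prime)
    (hrs : r ≠ s) (hsc : Cfsg.Agent.H537.Cop.SC r T) (hok : okPair n l r s = true) (hrn : r ∣ n) (hr2 : ¬ r ^ 2 ∣ n)
    (hsn : s ∣ n) (hs2 : ¬ s ^ 2 ∣ n) {S : Type} [Group S] [Finite S] {A M : Subgroup T} {k : ℕ} (hM : IsCoatom M)
    (hF : Fac T A M S k) :
    ∃ (O : Subgroup M) (_ : O.Normal) (N : Subgroup (M ⧸ O)), Top M r O N ∧ ∃ g ∈ surv n l r [s], Real g N ∧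
      Nat.card N = ordN g ∧ ordN g ∣ Nat.card M ∧ M.index ∣ n / ordN g := by
  subst hn
  obtain ⟨O, hO, N, h1, g, hg, h2, h3, h4⟩ := Cfsg.Agent.H57.BG.exists_name tab known (T := T) rfl hv hr hr2 [s]
    (by simp) (fun t ht => by
      rw [List.mem_singleton] at ht
      subst ht
      exact ⟨hs, noOrd_of_cent hr hsc hs hrs, hok⟩) hM.1 (hF.dvd (cyc_of_sq hr hrn hr2).1) (fun t ht => by
      rw [List.mem_singleton] at ht
      subst ht
      exact hF.dvd (cyc_of_sq hs hsn hs2).1)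
  refine ⟨O, hO, N, h1, g, hg, h2, h3, h4, ?_⟩
  have hpos : 0 < ordN g := by rw [← h3]; exact Nat.card_pos
  obtain ⟨c, hc⟩ := h4
  rw [← M.card_mul_index, hc, mul_assoc, Nat.mul_div_cancel_left _ hpos]
  exact dvd_mul_left _ _

/-- an element of the first factor commutes with the other factors -/
theorem exists_cent {T : Type*} [Group T] {A B : Subgroup T} {S : Type*} [Group S] [Finite S] {l : ℕ}
    (h : Fac T A B S l) (a : S) :
    ∃ x ∈ A, orderOf x = orderOf a ∧ Nat.card S ^ (l - 1) ∣ Nat.card (centralizer ({x} : Set T)) := by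
  obtain ⟨e⟩ := h.iso
  have h2 := h.two_le
  let i : Fin l := ⟨0, by omega⟩
  let φ : (Fin l → S) →* T := A.subtype.comp e.symm.toMonoidHom
  have hφ : Function.Injective φ := A.subtype_injective.comp e.symm.injective
  let ev : (Fin l → S) →* S := Pi.evalMonoidHom (fun _ => S) i
  have hev : Function.Surjective ev := fun s => ⟨fun _ => s, rfl⟩
  refine ⟨φ (Pi.mulSingle i a), SetLike.coe_mem _, ?_, ?_⟩
  · rw [orderOf_injective φ hφ]
    have h3 : Pi.mulSingle i a = MonoidHom.mulSingle (fun _ : Fin l => S) i a := rfl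
    rw [h3, orderOf_injective _ (Pi.mulSingle_injective (M := fun _ : Fin l => S) i)]
  · have h3 : Nat.card ev.ker * Nat.card S = Nat.card S ^ l := by
      have h4 := Subgroup.card_mul_index ev.ker
      rw [Subgroup.index_ker, MonoidHom.range_eq_top.2 hev, Subgroup.card_top] at h4
      rw [h4, Nat.card_pi]
      simp only [Finset.prod_const, Finset.card_univ, Fintype.card_fin]
    have h5 : Nat.card ev.ker = Nat.card S ^ (l - 1) := by
      apply Nat.eq_of_mul_eq_mul_right (Nat.card_pos (α := S))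
      rw [h3, ← pow_succ]
      congr 1
      omega
    have h6 : ev.ker.map φ ≤ centralizer ({φ (Pi.mulSingle i a)} : Set T) := by
      rintro _ ⟨f, hf, rfl⟩
      rw [mem_centralizer_singleton_iff, ← map_mul, ← map_mul]
      congr 1
      have hf' : f i = 1 := hf
      funext j
      by_cases hj : j = i
      · subst hj
        rw [Pi.mul_apply, Pi.mul_apply, hf', one_mul, mul_one]
      · rw [Pi.mul_apply, Pi.mul_apply, Pi.mulSingle_eq_of_ne (M := fun _ => S) hj, one_mul, mul_one]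
    rw [← h5, ← Subgroup.card_map_of_injective hφ]
    exact Subgroup.card_dvd_of_le h6

end Cfsg.Agent.H354.Fac
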