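import Cfsg.Agent.H354.Fac.MThree

/-!
# Block matrices: two commuting elements of order 7 in `SL6(2)` and `Sp12(2)` (helper354, S3679)
-/

set_option autoImplicit false
set_option maxRecDepth 100000

namespace Cfsg.Agent.H354.Fac.MT

open Matrix

abbrev II : Type := Fin 3 ⊕ Fin 3

abbrev M6 : Type := Matrix (Fin 6) (Fin 6) (ZMod 2)

/-- the reindexing -/
def Rx : Matrix II II (ZMod 2) ≃ₐ[ZMod 2] M6 := reindexAlgEquiv (ZMod 2) (ZMod 2) finSumFinEquiv

theorem Rx_t (m : Matrix II II (ZMod 2)) : (Rx m)ᵀ = Rx mᵀ := rfl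

/-- block diagonal `6 × 6` matrices -/
def D (a b : M3) : M6 := Rx (fromBlocks a 0 0 b)

theorem D_mul (a b a' b' : M3) : D a b * D a' b' = D (a * a') (b * b') := by
  rw [D, D, D, ← map_mul, fromBlocks_multiply]
  simp

theorem D_one : D 1 1 = 1 := by
  rw [D, fromBlocks_one, map_one]

theorem D_t (a b : M3) : (D a b)ᵀ = D aᵀ bᵀ := by
  rw [D, D, Rx_t, fromBlocks_transpose]
  simp

theorem D_inj {a b a' b' : M3} (h : D a b = D a' b') : a = a' ∧ b = b' := by
  have h1 := Rx.injective h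
  rw [fromBlocks_inj] at h1
  exact ⟨h1.1, h1.2.2.2⟩

theorem D_zero : D 0 0 = 0 := by
  rw [D, fromBlocks_zero, map_zero]

theorem D_pow (a b : M3) (n : ℕ) : D a b ^ n = D (a ^ n) (b ^ n) := by
  induction n with
  | zero => rw [pow_zero, pow_zero, pow_zero, D_one]
  | succ n ih => rw [pow_succ, ih, D_mul, pow_succ, pow_succ]

/-- the swap -/
def sw : M6 := Rx (fromBlocks 0 1 1 0)

theorem sw_sw : sw * sw = 1 := by
  rw [sw, ← map_mul, fromBlocks_multiply]
  simp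

theorem sw_t : swᵀ = sw := by
  rw [sw, Rx_t, fromBlocks_transpose]
  simp

theorem sw_D (a b : M3) : sw * D a b = D b a * sw := by
  rw [sw, D, D, ← map_mul, ← map_mul, fromBlocks_multiply, fromBlocks_multiply]
  simp

/-- matrices intertwining the two pairs -/
theorem inter {u u' : M3} (h1 : ∀ m : M3, m * u = m → m = 0) (h2 : ∀ m : M3, u' * m = m → m = 0) {z : M6}
    (ha : z * D u 1 = D u' 1 * z) (hb : z * D 1 u = D 1 u' * z) :
    ∃ m n : M3, z = D m n ∧ m * u = u' * m ∧ n * u = u' * n := by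
  obtain ⟨w, rfl⟩ := Rx.surjective z
  rw [D, D, ← map_mul, ← map_mul] at ha hb
  have ha' := Rx.injective ha
  have hb' := Rx.injective hb
  rw [← fromBlocks_toBlocks w, fromBlocks_multiply, fromBlocks_multiply, fromBlocks_inj] at ha' hb'
  simp only [mul_zero, zero_mul, mul_one, one_mul, add_zero, zero_add] at ha' hb'
  obtain ⟨a1, a2, a3, -⟩ := ha'
  obtain ⟨-, b2, b3, b4⟩ := hb'
  refine ⟨w.toBlocks₁₁, w.toBlocks₂₂, ?_, a1, b4⟩
  have h12 : w.toBlocks₁₂ = 0 := h2 _ a2.symm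
  have h21 : w.toBlocks₂₁ = 0 := h1 _ a3
  rw [D, show fromBlocks w.toBlocks₁₁ 0 0 w.toBlocks₂₂ = fromBlocks w.toBlocks₁₁ w.toBlocks₁₂ w.toBlocks₂₁ w.toBlocks₂₂ by
    rw [h12, h21], fromBlocks_toBlocks]

theorem fix_right_h : ∀ m : M3, m * h = m → m = 0 := by decide +kernel
theorem fix_left_h : ∀ m : M3, h * m = m → m = 0 := by decide +kernel
theorem int_hg : ∀ m : M3, m * g = h * m → m = 0 := by decide +kernel
theorem comm_h : ∀ m : M3, m * h = h * m → m = 0 ∨ ∃ i : Fin 7, m = h ^ (i : ℕ) := by decide +kernel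

/-- `12 × 12` matrices -/
abbrev M12 : Type := Matrix (Fin 6 ⊕ Fin 6) (Fin 6 ⊕ Fin 6) (ZMod 2)

/-- block diagonal matrices -/
def E (a b c d : M3) : M12 := fromBlocks (D a b) 0 0 (D c d)

theorem E_mul (a b c d a' b' c' d' : M3) : E a b c d * E a' b' c' d' = E (a * a') (b * b') (c * c') (d * d') := by
  rw [E, E, E, fromBlocks_multiply, D_mul, D_mul]
  simp

theorem E_one : E 1 1 1 1 = 1 := by
  rw [E, D_one, fromBlocks_one]

theorem E_pow (a b c d : M3) (n : ℕ) : E a b c d ^ n = E (a ^ n) (b ^ n) (c ^ n) (d ^ n) := by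
  induction n with
  | zero => simp only [pow_zero, E_one]
  | succ n ih => rw [pow_succ, ih, E_mul, pow_succ, pow_succ, pow_succ, pow_succ]

theorem E_inj {a b c d a' b' c' d' : M3} (h : E a b c d = E a' b' c' d') : a = a' ∧ b = b' ∧ c = c' ∧ d = d' := by
  rw [E, E, fromBlocks_inj] at h
  obtain ⟨h1, -, -, h2⟩ := h
  obtain ⟨h3, h4⟩ := D_inj h1
  obtain ⟨h5, h6⟩ := D_inj h2
  exact ⟨h3, h4, h5, h6⟩

/-- the elements -/
def a12 : M12 := E g 1 h 1
def b12 : M12 := E 1 g 1 h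
def s12 : M12 := fromBlocks sw 0 0 sw
def c12 : M12 := E 1 c 1 ciᵀ
def c12' : M12 := E 1 ci 1 cᵀ
def m12 : M12 := fromBlocks (D 1 0) (D 0 x) (D 0 x) (D 1 0)

theorem s_s : s12 * s12 = 1 := by
  rw [s12, fromBlocks_multiply, sw_sw]
  simp [fromBlocks_one]

theorem s_E (a b c d : M3) : s12 * E a b c d = E b a d c * s12 := by
  rw [s12, E, E, fromBlocks_multiply, fromBlocks_multiply, sw_D, sw_D]
  simp

theorem c_c' : c12 * c12' = 1 := by
  rw [c12, c12', E_mul, mul_one, c_ci, ← transpose_mul, c_ci, transpose_one, E_one]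

theorem c_b : c12 * b12 = b12 ^ 2 * c12 := by
  rw [c12, b12, E_pow, E_mul, E_mul, show c * g = g ^ 2 * c by decide +kernel,
    show ciᵀ * h = h ^ 2 * ciᵀ by decide +kernel]
  simp

theorem c_a : c12 * a12 = a12 * c12 := by
  rw [c12, a12, E_mul, E_mul]
  simp

theorem m_m : m12 * m12 = 1 := by
  rw [m12, fromBlocks_multiply]
  simp only [D_mul, mul_zero, zero_mul, mul_one, D_zero, add_zero, zero_add, x_x]
  have h1 : D 1 0 + D 0 1 = 1 := by
    rw [← D_one, D, D, D, ← map_add, fromBlocks_add]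
    simp
  have h2 : D 0 1 + D 1 0 = 1 := by rw [add_comm, h1]
  rw [h1, h2, fromBlocks_one]

theorem m_b : m12 * b12 = E 1 gi 1 hi * m12 := by
  rw [m12, b12, E, E, fromBlocks_multiply, fromBlocks_multiply]
  simp only [D_mul, mul_zero, zero_mul, mul_one, one_mul, add_zero, zero_add, D_zero]
  rw [show x * h = gi * x by decide +kernel, show x * g = hi * x by decide +kernel]

theorem m_a : m12 * a12 = a12 * m12 := by
  rw [m12, a12, E, fromBlocks_multiply, fromBlocks_multiply]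
  simp only [D_mul, mul_zero, zero_mul, mul_one, one_mul, add_zero, zero_add, D_zero]

theorem a_b : a12 * b12 = b12 * a12 := by
  rw [a12, b12, E_mul, E_mul]
  simp

theorem a_seven : a12 ^ 7 = 1 := by
  rw [a12, E_pow, g_seven, one_pow, show h ^ 7 = 1 by decide +kernel, E_one]

theorem b_seven : b12 ^ 7 = 1 := by
  rw [b12, E_pow, g_seven, one_pow, show h ^ 7 = 1 by decide +kernel, E_one]

theorem a_ne : a12 ≠ 1 := fun h => g_ne (E_inj (h.trans E_one.symm)).1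

theorem b_ne : ∀ i : ℕ, b12 ≠ a12 ^ i := fun i h => by
  rw [a12, E_pow, one_pow] at h
  exact g_ne (E_inj h).2.1

/-- **the centralizer of the two elements** -/
theorem cent {z : M12} (ha : z * a12 = a12 * z) (hb : z * b12 = b12 * z) :
    ∃ m n m' n' : M3, z = E m n m' n' ∧ (m = 0 ∨ ∃ i : Fin 7, m = g ^ (i : ℕ)) ∧ (n = 0 ∨ ∃ i : Fin 7, n = g ^ (i : ℕ)) ∧
      (m' = 0 ∨ ∃ i : Fin 7, m' = h ^ (i : ℕ)) ∧ (n' = 0 ∨ ∃ i : Fin 7, n' = h ^ (i : ℕ)) := by
  rw [a12, E] at ha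
  rw [b12, E] at hb
  rw [← fromBlocks_toBlocks z, fromBlocks_multiply, fromBlocks_multiply, fromBlocks_inj] at ha hb
  simp only [mul_zero, zero_mul, add_zero, zero_add] at ha hb
  obtain ⟨a1, a2, a3, a4⟩ := ha
  obtain ⟨b1, b2, b3, b4⟩ := hb
  obtain ⟨m, n, h1, h2, h3⟩ := inter fix_right fix_left a1 b1
  obtain ⟨m2, n2, h4, h5, h6⟩ := inter fix_right_h fix_left a2 b2
  obtain ⟨m3, n3, h7, h8, h9⟩ := inter fix_right fix_left_h a3 b3
  obtain ⟨m', n', h10, h11, h12⟩ := inter fix_right_h fix_left_h a4 b4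
  refine ⟨m, n, m', n', ?_, comm_g _ h2, comm_g _ h3, comm_h _ h11, comm_h _ h12⟩
  rw [E, ← h1, ← h10, ← fromBlocks_toBlocks z]
  rw [int_gh _ h5, int_gh _ h6, D_zero] at h4
  rw [int_hg _ h8, int_hg _ h9, D_zero] at h7
  rw [h4, h7]
  rfl

/-- the centralizer in the symplectic group -/
theorem cent_sp {z : M12} (ha : z * a12 = a12 * z) (hb : z * b12 = b12 * z)
    (hz : z * fromBlocks 0 1 1 0 * zᵀ = fromBlocks 0 1 1 0) : ∃ i j : ℕ, z = a12 ^ i * b12 ^ j := by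
  obtain ⟨m, n, m', n', rfl, hm, hn, hm', hn'⟩ := cent ha hb
  rw [E, fromBlocks_transpose, fromBlocks_multiply, fromBlocks_multiply, fromBlocks_inj] at hz
  simp only [mul_zero, zero_mul, add_zero, zero_add, mul_one, transpose_zero] at hz
  obtain ⟨-, h1, -, -⟩ := hz
  rw [D_t, D_mul, ← D_one] at h1
  obtain ⟨h2, h3⟩ := D_inj h1
  have key : ∀ m m' : M3, m * m'ᵀ = 1 → (m = 0 ∨ ∃ i : Fin 7, m = g ^ (i : ℕ)) →
      (m' = 0 ∨ ∃ i : Fin 7, m' = h ^ (i : ℕ)) → ∃ i : ℕ, m = g ^ i ∧ m' = h ^ i := by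
    rintro m m' h1 (rfl | ⟨i, rfl⟩) h2
    · rw [zero_mul] at h1
      exact absurd h1 (by decide)
    · rcases h2 with rfl | ⟨j, rfl⟩
      · rw [transpose_zero, mul_zero] at h1
        exact absurd h1 (by decide)
      · refine ⟨i, rfl, ?_⟩
        revert h1
        revert i j
        decide +kernel
  obtain ⟨i, rfl, rfl⟩ := key m m' h2 hm hm'
  obtain ⟨j, rfl, rfl⟩ := key n n' h3 hn hn'
  refine ⟨i, j, ?_⟩
  rw [a12, b12, E_pow, E_pow, E_mul]
  simp

end Cfsg.Agent.H354.Fac.MT
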