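import Cfsg.Agent.H354.Fac.Fuse

/-!
# Numerical cases (helper354, S3679)

`chkD p s h` : no subgroup `H` of order `h` of `S × S`, `|S| = s`, in the situation `Dg`.
-/

set_option autoImplicit false
set_option maxRecDepth 100000

namespace Cfsg.Agent.H354.Fac

open Subgroup
open Cfsg.Agent.OrdDiv
open Cfsg.Agent.H899.CG
open Cfsg.Agent.H257.El (Known)
open Cfsg.Agent.H537.Cop (SC)

/-- numerical form of `ruleN` -/
def nOK (p s h : ℕ) : Bool :=
  (List.range h).any fun m => decide ((m + 1) ∣ h) && decide (p ∣ m + 1) && decide ((h / (m + 1)) % p = 1) &&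
    (List.range (p * (p - 1))).any fun n => decide (m + 1 ∣ n + 1) && decide (n + 1 ∣ p * (p - 1)) &&
      decide (n + 1 ∣ s) && decide ((s / (n + 1)) % p = 1)

theorem nOK_of {p s h : ℕ} (hp : 1 < p) (hh : h ≠ 0) (hx : ∃ m n, m ∣ h ∧ p ∣ m ∧ (h / m) % p = 1 ∧ m ∣ n ∧
    n ∣ p * (p - 1) ∧ n ∣ s ∧ (s / n) % p = 1) : nOK p s h = true := by
  obtain ⟨m, n, h1, h2, h3, h4, h5, h6, h7⟩ := hx
  have hm : m ≠ 0 := by
    rintro rfl
    exact hh (zero_dvd_iff.1 h1)
  have hn : n ≠ 0 := by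
    rintro rfl
    have : 0 < p * (p - 1) := Nat.mul_pos (by omega) (by omega)
    rw [zero_dvd_iff] at h5
    omega
  have hmh := Nat.le_of_dvd (Nat.pos_of_ne_zero hh) h1
  have hnp := Nat.le_of_dvd (Nat.mul_pos (by omega) (by omega)) h5
  have hm1 : m - 1 + 1 = m := by omega
  have hn1 : n - 1 + 1 = n := by omega
  rw [nOK, List.any_eq_true]
  refine ⟨m - 1, List.mem_range.2 (by omega), ?_⟩
  simp only [hm1, Bool.and_eq_true, decide_eq_true_eq, List.any_eq_true]
  refine ⟨⟨⟨h1, h2⟩, h3⟩, n - 1, List.mem_range.2 (by omega), ?_⟩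
  rw [hn1]
  exact ⟨⟨⟨h4, h5⟩, h6⟩, h7⟩

/-- possible orders `a` of `K1` -/
def okK (p s h a : ℕ) : Bool :=
  decide (a ∣ s) && decide (a ∣ h) && (([2, 3, 5, 7] : List ℕ).all fun r => (List.range 12).all fun f =>
    !(decide (r ^ f ∣ a) && !decide (r ^ (f + 1) ∣ a)) || decide (r ^ f % p = 1)) && decide (h / a ∣ s) &&
    decide (5 * (h / a) ≤ s) && (decide (a = 1) || decide (5 * (p * a) ≤ s)) && nOK p s (h / a)

/-- no possible order -/
def chkD (p s h : ℕ) : Bool := (List.range s).all fun a => !okK p s h (a + 1)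

variable {S : Type*} [Group S] [Finite S] {p : ℕ} {H : Subgroup (S × S)}

/-- a normal subgroup of the projection -/
theorem Dg.L1_ne_top (hd : Dg S p H) (hS : IsSimpleGroup S) (h1 : Nat.card (K1 H) ≠ 1) (hpS : p ∣ Nat.card S) :
    L1 H ≠ ⊤ := by
  intro ht
  have hn : (K1 H).Normal := by
    have h2 := L1_le (H := H)
    rw [ht, top_le_iff] at h2
    exact Subgroup.normalizer_eq_top_iff.1 h2
  rcases hS.eq_bot_or_eq_top_of_normal _ hn with h | h
  · rw [h, Subgroup.card_bot] at h1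
    exact h1 rfl
  · apply hd.k1
    rw [h, Subgroup.card_top]
    exact hpS

theorem Dg.false (hd : Dg S p H) (hS : IsSimpleGroup S) (hna : ¬ IsMulCommutative S) {s h : ℕ} (hs : Nat.card S = s)
    (hh : Nat.card H = h) (hne : h ≠ s) (hp2 : ¬ p ^ 2 ∣ s) (hchk : chkD p s h = true) : False := by
  subst hs
  subst hh
  have hK := card_K1_mul_L2 (H := H)
  have hK' := card_K2_mul_L1 (H := H)
  have hpS : p ∣ Nat.card S := hd.dvd_L2.trans (Subgroup.card_subgroup_dvd_card _)
  have ha : 0 < Nat.card (K1 H) := Nat.card_pos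
  have hb : 0 < Nat.card (L2 H) := Nat.card_pos
  have hdiv : Nat.card H / Nat.card (K1 H) = Nat.card (L2 H) := by
    rw [← hK, Nat.mul_div_cancel_left _ ha]
  have hks : Nat.card (K1 H) ∣ Nat.card S := Subgroup.card_subgroup_dvd_card _
  have hls : Nat.card (L2 H) ∣ Nat.card S := Subgroup.card_subgroup_dvd_card _
  -- `L2` is proper
  have hL2 : L2 H ≠ ⊤ := by
    intro ht
    have h1 : Nat.card (K2 H) = 1 := by
      by_contra h1
      exact hd.sw.L1_ne_top hS (by rw [K1_sw]; exact h1) hpS (by rw [L1_sw]; exact ht)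
    rw [h1, one_mul] at hK'
    rw [ht, Subgroup.card_top, ← hK'] at hK
    have h2 := Subgroup.card_le_card_group (L1 H)
    have h3 : Nat.card (K1 H) = 1 := by
      by_contra h3
      have h4 : 2 ≤ Nat.card (K1 H) := by omega
      have h5 : 0 < Nat.card S := Nat.card_pos
      have h6 : 2 * Nat.card S ≤ Nat.card (K1 H) * Nat.card S := Nat.mul_le_mul_right _ h4
      omega
    rw [h3, one_mul, hK'] at hK
    exact hne hK.symm
  have hidx : ∀ L : Subgroup S, L ≠ ⊤ → 5 * Nat.card L ≤ Nat.card S := by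
    intro L hL
    have h1 := Cfsg.Agent.SmallSimple.Embed.five_le_index hna L hL
    rw [← Subgroup.card_mul_index L, mul_comm]
    exact Nat.mul_le_mul_left _ h1
  have hok : okK p (Nat.card S) (Nat.card H) (Nat.card (K1 H)) = true := by
    rw [okK, hdiv]
    simp only [Bool.and_eq_true, decide_eq_true_eq, List.all_eq_true, Bool.or_eq_true, Bool.not_eq_true',
      Bool.and_eq_false_iff, decide_eq_false_iff_not, Bool.not_eq_false']
    refine ⟨⟨⟨⟨⟨⟨hks, Dvd.intro _ hK⟩, ?_⟩, hls⟩, hidx _ hL2⟩, ?_⟩, ?_⟩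
    · intro r hr f _
      by_contra hcon
      push Not at hcon
      obtain ⟨⟨h1, h2⟩, h3⟩ := hcon
      have hrp : r.Prime := by
        simp only [List.mem_cons, List.not_mem_nil, or_false] at hr
        rcases hr with rfl | rfl | rfl | rfl <;> norm_num
      apply h3
      have h4 : (Nat.card (K1 H)).factorization r = f := by
        have h5 := (hrp.pow_dvd_iff_le_factorization ha.ne').1 h1
        have h6 := mt (hrp.pow_dvd_iff_le_factorization ha.ne').2 h2
        omega
      rw [← h4]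
      exact hd.mod hrp
    · by_cases h1 : Nat.card (K1 H) = 1
      · exact Or.inl h1
      · right
        refine le_trans (Nat.mul_le_mul_left 5 ?_) (hidx _ (hd.L1_ne_top hS h1 hpS))
        apply Nat.le_of_dvd Nat.card_pos
        exact Nat.Coprime.mul_dvd_of_dvd_of_dvd ((Nat.Prime.coprime_iff_not_dvd hd.prime).2 hd.k1) hd.dvd_L1
          (Subgroup.card_dvd_of_le K1_le_L1)
    · exact nOK_of hd.prime.one_lt Nat.card_pos.ne' (ruleN hd.prime hd.sc hp2 hd.dvd_L2)
  rw [chkD, List.all_eq_true] at hchk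
  have h1 := hchk (Nat.card (K1 H) - 1) (List.mem_range.2 (by
    have := Nat.le_of_dvd Nat.card_pos hks
    omega))
  rw [show Nat.card (K1 H) - 1 + 1 = Nat.card (K1 H) by omega, hok] at h1
  simp at h1

/-- one check for both rules: `(r, e)` for `ruleB`, `r = 0` for `chkD` -/
def chk (p k s : ℕ) (w : ℕ × ℕ) : Bool :=
  !decide (k ∣ s ^ 2) || (decide (s ^ 2 / k ≠ s) && !decide (p ^ 2 ∣ s) &&
    if w.1 = 0 then chkD p s (s ^ 2 / k)
    else decide (w.1.Prime) && !decide (w.1 ^ (w.2 + 1) ∣ s) && decide (w.1 ^ (w.2 + 1) ∣ s ^ 2 / k) &&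
      (List.range w.2).all fun f => decide (w.1 ^ (f + 1) % p ≠ 1))

theorem Dg.false_of_chk (hd : Dg S p H) (hS : IsSimpleGroup S) (hna : ¬ IsMulCommutative S) {s k : ℕ} {w : ℕ × ℕ}
    (hs : Nat.card S = s) (hk : k * Nat.card H = s ^ 2) (hchk : chk p k s w = true) : False := by
  have hs0 : 0 < s := by rw [← hs]; exact Nat.card_pos
  have hk0 : 0 < k := by
    rcases Nat.eq_zero_or_pos k with h | h
    · rw [h, zero_mul] at hk
      have := pow_pos hs0 2
      omega
    · exact h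
  have hh : Nat.card H = s ^ 2 / k := by rw [← hk, Nat.mul_div_cancel_left _ hk0]
  have hks : k ∣ s ^ 2 := Dvd.intro _ hk
  rw [chk, ← hh] at hchk
  simp only [hks, decide_true, Bool.not_true, Bool.false_or, Bool.and_eq_true, decide_eq_true_eq,
    Bool.not_eq_true', decide_eq_false_iff_not] at hchk
  obtain ⟨⟨h1, h2⟩, h3⟩ := hchk
  split_ifs at h3 with h4
  · exact hd.false hS hna hs rfl h1 h2 h3
  · simp only [Bool.and_eq_true, decide_eq_true_eq, Bool.not_eq_true', decide_eq_false_iff_not,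
      List.all_eq_true, List.mem_range] at h3
    obtain ⟨⟨⟨h5, h6⟩, h7⟩, h8⟩ := h3
    refine hd.ruleB h5 (by rw [hs]; exact h6) h7 fun f hf1 hf2 => ?_
    have := h8 (f - 1) (by omega)
    rwa [show f - 1 + 1 = f by omega] at this

end Cfsg.Agent.H354.Fac
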