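import Cfsg.Agent.H354.Fac.Basic

/-!
# Sylow counting in a factorization (helper354, S3679)

`T` transitive on `X`, `P` of order `p` in the stabiliser `M` of a point, `p ^ 2 ∤ |M|`: then
`|T : N_T(P)| * |Fix P| = |X| * n`, `n ≡ 1 [MOD p]` (`count`). For `T = A M` and `P ≤ A ∩ M`:
`|T : N_T(P)| ≡ |A : N_A(P)| [MOD p]` (`modEq_index`); for `A = S ^ l` and `P` in a factor, a Sylow subgroup of it:
`|T : N_T(P)| ≡ 1 [MOD p]` (`modEq_one`).
-/

set_option autoImplicit false

namespace Cfsg.Agent.H354.Fac

open Subgroup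
open Cfsg.Agent.H899.CG

theorem count {G X : Type*} [Group G] [Finite G] [MulAction G X] [MulAction.IsPretransitive G X] (a : X) {p : ℕ}
    [hp : Fact p.Prime] (P : Subgroup G) (hP : Nat.card P = p) (hPa : P ≤ MulAction.stabilizer G a)
    (hpa : ¬ p ^ 2 ∣ Nat.card (MulAction.stabilizer G a)) :
    ∃ n, n ≡ 1 [MOD p] ∧ (normalizer (P : Set G)).index * {x : X | ∀ g ∈ P, g • x = x}.ncard =
      (MulAction.stabilizer G a).index * n := by
  set M := MulAction.stabilizer G a with hM
  set N := normalizer (P : Set G) with hN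
  -- `P` is a Sylow subgroup of `M`
  have hPc : Nat.card (P.subgroupOf M) = p := by
    rw [Nat.card_congr (Subgroup.subgroupOfEquivOfLe hPa).toEquiv, hP]
  have hSyl : ∀ Q : Subgroup G, Nat.card Q = p → Q ≤ M → ∃ S : Sylow p M, (S : Subgroup M) = Q.subgroupOf M := by
    intro Q hQ hQM
    have hQc : Nat.card (Q.subgroupOf M) = p := by
      rw [Nat.card_congr (Subgroup.subgroupOfEquivOfLe hQM).toEquiv, hQ]
    have h1 : IsPGroup p (Q.subgroupOf M) := IsPGroup.of_card (n := 1) (by rw [hQc, pow_one])
    obtain ⟨S, hS⟩ := h1.exists_le_sylow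
    refine ⟨S, ?_⟩
    symm
    refine Subgroup.eq_of_le_of_card_ge hS ?_
    rw [hQc]
    obtain ⟨k, hk⟩ := IsPGroup.iff_card.1 S.isPGroup'
    rw [hk]
    have hk1 : k ≤ 1 := by
      by_contra hk2
      exact hpa ((pow_dvd_pow p (by omega : 2 ≤ k)).trans (hk ▸ Subgroup.card_subgroup_dvd_card (S : Subgroup M)))
    calc p ^ k ≤ p ^ 1 := Nat.pow_le_pow_right hp.out.pos hk1
      _ = p := pow_one p
  -- the number of Sylow subgroups of `M`
  obtain ⟨S, hS⟩ := hSyl P hP hPa
  have hn : N.relIndex M ≡ 1 [MOD p] := by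
    have h1 := card_sylow_modEq_one p M
    rw [S.card_eq_index_normalizer, show (S : Set M) = ((P.subgroupOf M : Subgroup M) : Set M) from
      (congrArg (fun K : Subgroup M => (K : Set M)) hS :)] at h1
    have h2 : normalizer ((P.subgroupOf M : Subgroup M) : Set M) = N.subgroupOf M := by
      ext g
      rw [Subgroup.mem_subgroupOf, mem_normalizer_iff, hN, mem_normalizer_iff]
      constructor
      · intro h x
        constructor
        · intro hx
          exact (h ⟨x, hPa hx⟩).1 hx
        · intro hx
          have hxM : x ∈ M := by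
            have h3 := M.mul_mem (M.mul_mem (M.inv_mem g.2) (hPa hx)) g.2
            simpa [mul_assoc] using h3
          exact (h ⟨x, hxM⟩).2 hx
      · intro h x
        exact h x
    rw [h2] at h1
    exact h1
  refine ⟨N.relIndex M, hn, ?_⟩
  -- `N` is transitive on the fixed points
  have horb : MulAction.orbit N a = {x : X | ∀ g ∈ P, g • x = x} := by
    ext x
    constructor
    · rintro ⟨⟨n, hn⟩, rfl⟩ g hg
      change g • (n • a) = n • a
      have h1 : n⁻¹ * g * n ∈ P := by
        have h2 := (mem_normalizer_iff.1 (N.inv_mem hn)) g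
        rw [inv_inv] at h2
        exact h2.1 hg
      have h3 : (n⁻¹ * g * n) • a = a := hPa h1
      calc g • (n • a) = n • ((n⁻¹ * g * n) • a) := by
            rw [← mul_smul, ← mul_smul]
            congr 1
            group
        _ = n • a := by rw [h3]
    · intro hx
      obtain ⟨g, rfl⟩ := MulAction.exists_smul_eq G a x
      -- `g⁻¹ P g ≤ M`
      have h1 : P.map (MulAut.conj g⁻¹).toMonoidHom ≤ M := by
        rintro _ ⟨y, hy, rfl⟩
        change (g⁻¹ * y * g⁻¹⁻¹) • a = a
        rw [inv_inv, mul_smul, mul_smul, hx y hy, inv_smul_smul]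
      have h2 : Nat.card (P.map (MulAut.conj g⁻¹).toMonoidHom : Subgroup G) = p := by
        rw [Subgroup.card_map_of_injective (MulAut.conj g⁻¹).injective, hP]
      obtain ⟨S', hS'⟩ := hSyl _ h2 h1
      obtain ⟨m, hm⟩ := MulAction.exists_smul_eq M S S'
      -- `m P m⁻¹ = g⁻¹ P g`
      have h3 : P.map (MulAut.conj (m : G)).toMonoidHom = P.map (MulAut.conj g⁻¹).toMonoidHom := by
        have h4 : ((m • S : Sylow p M) : Subgroup M).map M.subtype = (S' : Subgroup M).map M.subtype := by rw [hm]
        rw [hS'] at h4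
        rw [show ((m • S : Sylow p M) : Subgroup M) = (S : Subgroup M).map (MulAut.conj m).toMonoidHom from rfl, hS] at h4
        rw [Subgroup.subgroupOf_map_subtype, inf_eq_left.2 h1] at h4
        rw [← h4, Subgroup.map_map]
        ext y
        constructor
        · rintro ⟨z, hz, rfl⟩
          exact ⟨⟨z, hPa hz⟩, hz, rfl⟩
        · rintro ⟨z, hz, rfl⟩
          exact ⟨(z : G), hz, rfl⟩
      refine ⟨⟨g * m, ?_⟩, ?_⟩
      · have h5 : P.map (MulAut.conj (g * m)).toMonoidHom = P := by
          rw [map_mul]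
          change P.map ((MulAut.conj g).toMonoidHom.comp (MulAut.conj (m : G)).toMonoidHom) = P
          rw [← Subgroup.map_map, h3, Subgroup.map_map]
          have h6 : (MulAut.conj g).toMonoidHom.comp (MulAut.conj g⁻¹).toMonoidHom = MonoidHom.id G := by
            ext y
            simp [MulAut.conj_apply, mul_assoc]
          rw [h6, Subgroup.map_id]
        rw [hN, mem_normalizer_iff]
        intro y
        constructor
        · intro hy
          rw [← h5]
          exact ⟨y, hy, rfl⟩
        · intro hy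
          rw [← h5] at hy
          obtain ⟨z, hz, hzy⟩ := hy
          have : z = y := (MulAut.conj (g * m)).injective hzy
          rwa [← this]
      · change (g * (m : G)) • a = g • a
        rw [mul_smul, show (m : G) • a = a from m.2]
  -- the orders
  have hF : {x : X | ∀ g ∈ P, g • x = x}.ncard = M.relIndex N := by
    rw [← horb, ← MulAction.index_stabilizer]
    rfl
  rw [hF, mul_comm, ← Subgroup.inf_relIndex_right, Subgroup.relIndex_mul_index inf_le_right, mul_comm,
    ← Subgroup.inf_relIndex_left, Subgroup.relIndex_mul_index inf_le_left]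

/-- the conjugates of `P` in `T` and in `A` -/
theorem modEq_index {T : Type*} [Group T] [Finite T] {A M : Subgroup T} (hfac : ∀ t : T, ∃ x ∈ A, ∃ y ∈ M, t = x * y)
    {p : ℕ} [hp : Fact p.Prime] (P : Subgroup T) (hP : Nat.card P = p) (hPA : P ≤ A) (hPM : P ≤ M)
    (hpM : ¬ p ^ 2 ∣ Nat.card M) :
    (normalizer (P : Set T)).index ≡ (normalizer ((P.subgroupOf A : Subgroup A) : Set A)).index [MOD p] := by
  let a : T ⧸ M := (1 : T)
  have hst : MulAction.stabilizer T a = M := by
    ext g
    rw [MulAction.mem_stabilizer_iff]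
    change ((g * 1 : T) : T ⧸ M) = ((1 : T) : T ⧸ M) ↔ _
    rw [mul_one, eq_comm, QuotientGroup.eq, inv_one, one_mul]
  have hstA : MulAction.stabilizer A a = M.subgroupOf A := by
    ext g
    rw [MulAction.mem_stabilizer_iff, Subgroup.mem_subgroupOf]
    change (((g : T) * 1 : T) : T ⧸ M) = ((1 : T) : T ⧸ M) ↔ _
    rw [mul_one, eq_comm, QuotientGroup.eq, inv_one, one_mul]
  have hpre : MulAction.IsPretransitive A (T ⧸ M) := by
    rw [MulAction.isPretransitive_iff_base a]
    intro z
    induction z using QuotientGroup.induction_on with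
    | H t =>
      obtain ⟨x, hx, y, hy, rfl⟩ := hfac t
      refine ⟨⟨x, hx⟩, ?_⟩
      change ((x * 1 : T) : T ⧸ M) = _
      rw [mul_one]
      exact QuotientGroup.eq.mpr (by simpa using hy)
  obtain ⟨n1, hn1, h1⟩ := count (G := T) a P hP (by rw [hst]; exact hPM) (by rw [hst]; exact hpM)
  obtain ⟨n2, hn2, h2⟩ := count (G := A) a (P.subgroupOf A)
    (by rw [Nat.card_congr (Subgroup.subgroupOfEquivOfLe hPA).toEquiv, hP])
    (by
      rw [hstA]
      intro x hx
      exact hPM hx)
    (by
      rw [hstA]
      intro hd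
      apply hpM
      refine hd.trans ?_
      rw [← Subgroup.card_map_of_injective A.subtype_injective, Subgroup.subgroupOf_map_subtype]
      exact Subgroup.card_dvd_of_le inf_le_left)
  have hF : {x : T ⧸ M | ∀ g ∈ P.subgroupOf A, g • x = x} = {x : T ⧸ M | ∀ g ∈ P, g • x = x} := by
    ext x
    constructor
    · intro h g hg
      exact h ⟨g, hPA hg⟩ hg
    · intro h g hg
      exact h (g : T) hg
  rw [hF] at h2
  set F := {x : T ⧸ M | ∀ g ∈ P, g • x = x}.ncard with hFdef
  have hFpos : 0 < F := by
    rw [hFdef, Set.ncard_pos (Set.toFinite _)]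
    refine ⟨a, fun g hg => ?_⟩
    have : g ∈ MulAction.stabilizer T a := by rw [hst]; exact hPM hg
    exact this
  have hk : (MulAction.stabilizer A a).index = (MulAction.stabilizer T a).index := by
    rw [MulAction.index_stabilizer_of_transitive, MulAction.index_stabilizer_of_transitive]
  rw [hk] at h2
  have h3 : (normalizer (P : Set T)).index * n2 = (normalizer ((P.subgroupOf A : Subgroup A) : Set A)).index * n1 := by
    apply Nat.eq_of_mul_eq_mul_right hFpos
    calc (normalizer (P : Set T)).index * n2 * F = (normalizer (P : Set T)).index * F * n2 := by ring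
      _ = (MulAction.stabilizer T a).index * n2 * n1 := by rw [h1]; ring
      _ = (normalizer ((P.subgroupOf A : Subgroup A) : Set A)).index * n1 * F := by rw [← h2]; ring
  calc (normalizer (P : Set T)).index ≡ (normalizer (P : Set T)).index * n2 [MOD p] := by
        simpa using (Nat.ModEq.mul_left _ hn2).symm
    _ = (normalizer ((P.subgroupOf A : Subgroup A) : Set A)).index * n1 := h3
    _ ≡ (normalizer ((P.subgroupOf A : Subgroup A) : Set A)).index [MOD p] := by
        simpa using Nat.ModEq.mul_left _ hn1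

/-- the number of conjugates of a subgroup of order `p` in a group with `p ^ 2 ∤ |S|` -/
theorem index_modEq_one {S : Type*} [Group S] [Finite S] {p : ℕ} [hp : Fact p.Prime] (h2 : ¬ p ^ 2 ∣ Nat.card S)
    (P : Subgroup S) (hP : Nat.card P = p) : (normalizer (P : Set S)).index ≡ 1 [MOD p] := by
  have h1 : IsPGroup p P := IsPGroup.of_card (n := 1) (by rw [hP, pow_one])
  obtain ⟨Q, hQ⟩ := h1.exists_le_sylow
  have hPQ : (P : Subgroup S) = Q := by
    refine Subgroup.eq_of_le_of_card_ge hQ ?_
    rw [hP]
    obtain ⟨k, hk⟩ := IsPGroup.iff_card.1 Q.isPGroup'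
    rw [hk]
    have hk1 : k ≤ 1 := by
      by_contra hk2
      exact h2 ((pow_dvd_pow p (by omega : 2 ≤ k)).trans (hk ▸ Subgroup.card_subgroup_dvd_card (Q : Subgroup S)))
    calc p ^ k ≤ p ^ 1 := Nat.pow_le_pow_right hp.out.pos hk1
      _ = p := pow_one p
  have h3 := card_sylow_modEq_one p S
  rw [Q.card_eq_index_normalizer, show (Q : Set S) = (P : Set S) from (congrArg (fun K : Subgroup S => (K : Set S)) hPQ.symm :)]
    at h3
  exact h3

/-- **Sylow counting**: a subgroup of order `p` of a factor which lies in `M` -/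
theorem modEq_one {T : Type*} [Group T] [Finite T] {A M : Subgroup T} {S : Type*} [Group S] [Finite S] {l : ℕ}
    (hF : Fac T A M S l) {p : ℕ} [hp : Fact p.Prime] (hpM : ¬ p ^ 2 ∣ Nat.card M) (hpS : ¬ p ^ 2 ∣ Nat.card S)
    (e : A ≃* (Fin l → S)) (i : Fin l) (x : S) (hx : orderOf x = p)
    (hxM : ((e.symm (Pi.mulSingle i x) : A) : T) ∈ M) :
    (normalizer (zpowers ((e.symm (Pi.mulSingle i x) : A) : T) : Set T)).index ≡ 1 [MOD p] := by
  set y : A := e.symm (Pi.mulSingle i x) with hy
  have hey : e y = Pi.mulSingle i x := by rw [hy, MulEquiv.apply_symm_apply]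
  have hoy : orderOf y = p := by
    rw [← MulEquiv.orderOf_eq e, hey]
    have h3 : Pi.mulSingle i x = MonoidHom.mulSingle (fun _ : Fin l => S) i x := rfl
    rw [h3, orderOf_injective _ (Pi.mulSingle_injective (M := fun _ : Fin l => S) i), hx]
  have hPA : zpowers (y : T) ≤ A := zpowers_le.2 y.2
  refine (modEq_index hF.fac (zpowers (y : T)) (by rw [Nat.card_zpowers, Subgroup.orderOf_coe, hoy]) hPA
    (zpowers_le.2 hxM) hpM).trans ?_
  -- the normalizer in `A`
  have h1 : (zpowers (y : T)).subgroupOf A = zpowers y := by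
    rw [Subgroup.subgroupOf, show (y : T) = A.subtype y from rfl, ← MonoidHom.map_zpowers,
      Subgroup.comap_map_eq_self_of_injective A.subtype_injective]
  rw [h1]
  let ev : A →* S := (Pi.evalMonoidHom (fun _ : Fin l => S) i).comp e.toMonoidHom
  have hev : Function.Surjective ev := fun s => ⟨e.symm (fun _ => s), by simp [ev]⟩
  have hmem : ∀ z : A, z ∈ zpowers y ↔ ev z ∈ zpowers x ∧ ∀ j, j ≠ i → e z j = 1 := by
    intro z
    constructor
    · intro hz
      obtain ⟨k, rfl⟩ := mem_zpowers_iff.1 hz
      constructor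
      · refine mem_zpowers_iff.2 ⟨k, ?_⟩
        change x ^ k = e (y ^ k) i
        rw [map_zpow, hey]
        simp
      · intro j hj
        rw [map_zpow, hey, Pi.pow_apply, Pi.mulSingle_eq_of_ne (M := fun _ => S) hj, one_zpow]
    · rintro ⟨h2, h3⟩
      obtain ⟨k, hk⟩ := mem_zpowers_iff.1 h2
      refine mem_zpowers_iff.2 ⟨k, e.injective ?_⟩
      rw [map_zpow, hey]
      funext j
      by_cases hj : j = i
      · subst hj
        rw [Pi.pow_apply, Pi.mulSingle_eq_same]
        exact hk
      · rw [Pi.pow_apply, Pi.mulSingle_eq_of_ne (M := fun _ => S) hj, one_zpow, h3 j hj]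
  have h2 : normalizer ((zpowers y : Subgroup A) : Set A) = (normalizer ((zpowers x : Subgroup S) : Set S)).comap ev := by
    ext g
    rw [Subgroup.mem_comap, mem_normalizer_iff, mem_normalizer_iff]
    constructor
    · intro h s
      let z : A := e.symm (Pi.mulSingle i s)
      have hez : e z = Pi.mulSingle i s := by rw [MulEquiv.apply_symm_apply]
      have h3 := h z
      rw [hmem, hmem] at h3
      have h4 : ∀ j, j ≠ i → e z j = 1 := fun j hj => by rw [hez, Pi.mulSingle_eq_of_ne (M := fun _ => S) hj]
      have h5 : ∀ j, j ≠ i → e (g * z * g⁻¹) j = 1 := fun j hj => by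
        rw [map_mul, map_mul, map_inv, Pi.mul_apply, Pi.mul_apply, h4 j hj, Pi.inv_apply]
        group
      have h6 : ev z = s := by
        change e z i = s
        rw [hez, Pi.mulSingle_eq_same]
      rw [map_mul, map_mul, map_inv, h6] at h3
      constructor
      · intro hs
        exact (h3.1 ⟨hs, h4⟩).1
      · intro hs
        exact (h3.2 ⟨hs, h5⟩).1
    · intro h z
      rw [hmem, hmem, map_mul, map_mul, map_inv]
      have h3 := h (ev z)
      constructor
      · rintro ⟨h4, h5⟩
        refine ⟨h3.1 h4, fun j hj => ?_⟩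
        rw [map_mul, map_mul, map_inv, Pi.mul_apply, Pi.mul_apply, h5 j hj, Pi.inv_apply]
        group
      · rintro ⟨h4, h5⟩
        refine ⟨h3.2 h4, fun j hj => ?_⟩
        have h6 := h5 j hj
        rw [map_mul, map_mul, map_inv, Pi.mul_apply, Pi.mul_apply, Pi.inv_apply, mul_inv_eq_one] at h6
        exact mul_eq_left.1 h6
  rw [h2, Subgroup.index_comap_of_surjective _ hev]
  exact index_modEq_one hpS (zpowers x) (by rw [Nat.card_zpowers, hx])

end Cfsg.Agent.H354.Fac
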