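import Mathlib

/-!
# A finite statement on vectors over `ZMod 7` (helper354, S3679)
-/

set_option autoImplicit false
set_option maxRecDepth 100000

namespace Cfsg.Agent.H354.Fac

abbrev Z7 : Type := ZMod 7

/-- the bad vectors -/
def bad (p q : Z7) : Bool := p = 0 || !(q = p || q = 2 * p || q = 4 * p)

theorem comb1 : ∀ α β γ δ : Z7, α * δ ≠ β * γ → ∃ j : Z7, j ≠ 0 ∧ bad (α + j * γ) (β + j * δ) := by
  decide +kernel

theorem comb2 : ∀ a1 a2 b1 b2 : Z7, a1 * b2 ≠ a2 * b1 → ∃ r : Z7, (r = 1 ∨ r = 2 ∨ r = 4) ∧ b2 - r * b1 ≠ 0 ∧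
    r * a1 - a2 ≠ 0 := by
  decide +kernel

/-- the finite statement -/
theorem comb (a1 a2 b1 b2 : Z7) : (∃ i j : Z7, ¬ (i = 0 ∧ j = 0) ∧ i * a1 + j * b1 = 0 ∧ i * a2 + j * b2 = 0) ∨
    ∃ i j j' : Z7, j ≠ 0 ∧ j' ≠ 0 ∧ i * a1 + j * b1 = 1 ∧
      (i * a2 + j * b2 = 1 ∨ i * a2 + j * b2 = 2 ∨ i * a2 + j * b2 = 4) ∧ bad (i * a1 + j' * b1) (i * a2 + j' * b2) := by
  have : Fact (Nat.Prime 7) := ⟨by norm_num⟩
  by_cases hdet : a1 * b2 = a2 * b1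
  · left
    by_cases h1 : b2 = 0 ∧ a2 = 0
    · obtain ⟨rfl, rfl⟩ := h1
      by_cases h2 : b1 = 0 ∧ a1 = 0
      · obtain ⟨rfl, rfl⟩ := h2
        exact ⟨1, 0, by simp, by ring, by ring⟩
      · refine ⟨b1, -a1, fun h => h2 ⟨h.1, by simpa using h.2⟩, by ring, by ring⟩
    · refine ⟨b2, -a2, fun h => h1 ⟨h.1, by simpa using h.2⟩, by linear_combination hdet, by ring⟩
  · right
    obtain ⟨r, hr, h1, h2⟩ := comb2 a1 a2 b1 b2 hdet
    obtain ⟨d, hd⟩ : ∃ d : Z7, d = a1 * b2 - a2 * b1 := ⟨_, rfl⟩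
    have hd0 : d ≠ 0 := by
      rw [hd]
      exact sub_ne_zero.2 hdet
    have e1 : (b2 - r * b1) / d * a1 + (r * a1 - a2) / d * b1 = 1 := by
      field_simp
      rw [hd]
      ring
    have e2 : (b2 - r * b1) / d * a2 + (r * a1 - a2) / d * b2 = r := by
      field_simp
      rw [hd]
      ring
    have hi : (b2 - r * b1) / d ≠ 0 := div_ne_zero h1 hd0
    have hj : (r * a1 - a2) / d ≠ 0 := div_ne_zero h2 hd0
    obtain ⟨j', hj', hb⟩ := comb1 ((b2 - r * b1) / d * a1) ((b2 - r * b1) / d * a2) b1 b2 (by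
      intro h
      apply hdet
      have h3 : (b2 - r * b1) / d * (a1 * b2) = (b2 - r * b1) / d * (a2 * b1) := by
        rw [← mul_assoc, ← mul_assoc]
        exact h
      exact mul_left_cancel₀ hi h3)
    exact ⟨_, _, j', hj, hj', e1, by rw [e2]; exact hr, hb⟩

theorem pow_three : ∀ j j' : Z7, j ≠ 0 → j' ≠ 0 → ∃ n : Fin 6, (3 : Z7) ^ (n : ℕ) * j = j' := by decide +kernel

end Cfsg.Agent.H354.Fac
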