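import Cfsg.Agent.H354.Fac.GD
import Cfsg.Agent.H354.Fac.DiagComb

/-!
# A diagonal intersection of order 7, `S` of order 168 (helper354, S3679)
-/

set_option autoImplicit false
set_option maxRecDepth 100000

namespace Cfsg.Agent.H354.Fac

open Subgroup
open Cfsg.Agent.OrdDiv
open Cfsg.Agent.H899.CG
open Cfsg.Agent.H257.El (Known)
open Cfsg.Agent.H537.Cop (SC)

section

variable {G : Type*} [Group G]

theorem zp {x : G} (hx : orderOf x = 7) {i j : ℤ} (h : (i : Z7) = j) : x ^ i = x ^ j := by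
  rw [← sub_eq_zero, ← Int.cast_sub, ZMod.intCast_zmod_eq_zero_iff_dvd] at h
  have h1 : x ^ (i - j) = 1 := orderOf_dvd_iff_zpow_eq_one.1 (by rw [hx]; exact h)
  rw [zpow_sub, mul_inv_eq_one] at h1
  exact h1

theorem zp' {x : G} (hx : orderOf x = 7) {i j : ℤ} (h : x ^ i = x ^ j) : (i : Z7) = j := by
  rw [← sub_eq_zero, ← Int.cast_sub, ZMod.intCast_zmod_eq_zero_iff_dvd]
  have h1 : x ^ (i - j) = 1 := by rw [zpow_sub, h, mul_inv_cancel]
  have := orderOf_dvd_iff_zpow_eq_one.2 h1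
  rwa [hx] at this

/-- powers with exponent in `ZMod 7` -/
noncomputable def pw (x : G) (i : Z7) : G := x ^ (i.val : ℤ)

theorem pw_int {x : G} (hx : orderOf x = 7) (i : ℤ) : pw x (i : Z7) = x ^ i := by
  apply zp hx
  simp

theorem pw_add {x : G} (hx : orderOf x = 7) (i j : Z7) : pw x (i + j) = pw x i * pw x j := by
  rw [pw, pw, pw, ← zpow_add]
  apply zp hx
  simp

theorem pw_mul {x : G} (hx : orderOf x = 7) (i j : Z7) : pw (pw x i) j = pw x (i * j) := by
  rw [pw, pw, pw, ← zpow_mul]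
  apply zp hx
  simp

theorem pw_one {x : G} : pw x 1 = x := by
  have : ((1 : Z7).val : ℤ) = 1 := rfl
  rw [pw, this, zpow_one]

theorem pw_zero {x : G} : pw x 0 = 1 := by
  have : ((0 : Z7).val : ℤ) = 0 := rfl
  rw [pw, this, zpow_zero]

theorem pw_inj {x : G} (hx : orderOf x = 7) {i j : Z7} (h : pw x i = pw x j) : i = j := by
  have := zp' hx h
  simpa using this

theorem pw_map {G' : Type*} [Group G'] (f : G →* G') (x : G) (i : Z7) : f (pw x i) = pw (f x) i := by
  rw [pw, pw, map_zpow]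

theorem pw_conj (t x : G) (i : Z7) : t * pw x i * t⁻¹ = pw (t * x * t⁻¹) i := by
  rw [pw, pw, conj_zpow]

theorem orderOf_pw {x : G} (hx : orderOf x = 7) {i : Z7} (hi : i ≠ 0) : orderOf (pw x i) = 7 := by
  have : Fact (Nat.Prime 7) := ⟨by norm_num⟩
  apply orderOf_eq_prime
  · have h7 : x ^ ((7 : ℕ) : ℤ) = 1 := by
      rw [zpow_natCast]
      exact orderOf_dvd_iff_pow_eq_one.1 (by rw [hx])
    rw [pw, ← zpow_natCast, ← zpow_mul, mul_comm, zpow_mul, h7, one_zpow]
  · intro h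
    apply hi
    apply pw_inj hx
    rw [h, pw_zero]

end

theorem two_two : (2 : Z7) * 2 = 4 := by decide

theorem exp21 : ∀ e : Z7, 1 = e ^ 21 → e = 1 ∨ e = 2 ∨ e = 4 := by decide +kernel

theorem key_bad : ∀ p q k : Z7, p ≠ 0 → (k = p ∨ k = 2 * p ∨ k = 4 * p) → (k = q ∨ k = 2 * q ∨ k = 4 * q) →
    bad p q = false := by decide +kernel

/-- conjugation in a group of order 168 -/
theorem norm_exp {S : Type*} [Group S] [Finite S] (hS : Nat.card S = 168) (hsc : SC 7 S) {x : S}
    (hx : orderOf x = 7) : (∀ c : S, ∀ p k : Z7, p ≠ 0 → c * pw x p * c⁻¹ = pw x k → k = p ∨ k = 2 * p ∨ k = 4 * p) ∧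
      ∃ c : S, c * x * c⁻¹ = pw x 2 := by
  have hp : Nat.Prime 7 := by norm_num
  have hp' : Fact (Nat.Prime 7) := ⟨hp⟩
  set N := normalizer (zpowers x : Set S) with hN
  have h1 := card_normalizer_dvd hp hsc hx
  have h2 := index_modEq_one (p := 7) (by rw [hS]; norm_num) (zpowers x) (by rw [Nat.card_zpowers, hx])
  rw [← hN] at h1 h2
  have h3 := Subgroup.card_mul_index N
  rw [hS] at h3
  have h4 : Nat.card N = 21 := by
    have h5 : Nat.card N ∣ 42 := h1
    have h6 : Nat.card N ∈ Nat.divisors 42 := Nat.mem_divisors.2 ⟨h5, by norm_num⟩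
    have h7 : N.index = 168 / Nat.card N := by
      rw [← h3, Nat.mul_div_cancel_left _ Nat.card_pos]
    rw [h7] at h2
    have h8 : ∀ m ∈ Nat.divisors 42, 168 / m ≡ 1 [MOD 7] → m = 21 := by decide +kernel
    exact h8 _ h6 h2
  -- the exponent of an element of the normalizer
  have hexp : ∀ c ∈ N, ∃ e : Z7, c * x * c⁻¹ = pw x e ∧ (e = 1 ∨ e = 2 ∨ e = 4) := by
    intro c hc
    have h5 : c * x * c⁻¹ ∈ zpowers x := ((mem_normalizer_iff.1 hc) x).1 (mem_zpowers x)
    obtain ⟨k, hk⟩ := mem_zpowers_iff.1 h5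
    refine ⟨(k : Z7), by rw [pw_int hx, hk], ?_⟩
    have h6 : ∀ n : ℕ, c ^ n * x * (c ^ n)⁻¹ = pw x ((k : Z7) ^ n) := by
      intro n
      induction n with
      | zero => simp [pw_one]
      | succ n ih =>
        have h7 : c ^ (n + 1) * x * (c ^ (n + 1))⁻¹ = c * (c ^ n * x * (c ^ n)⁻¹) * c⁻¹ := by
          rw [pow_succ']; group
        rw [h7, ih, pw_conj, ← hk, ← pw_int hx, pw_mul hx, pow_succ']
    have h7 : c ^ 21 = 1 := by
      have h8 := pow_card_eq_one' (x := (⟨c, hc⟩ : N))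
      rw [h4] at h8
      exact congrArg Subtype.val h8
    have h8 := h6 21
    rw [h7, one_mul, inv_one, mul_one] at h8
    have h9 : (1 : Z7) = (k : Z7) ^ 21 := pw_inj hx (by rw [pw_one, ← h8])
    exact exp21 _ h9
  constructor
  · intro c p k hp0 hc
    have hcN : c ∈ N := by
      rw [hN, mem_normalizer_iff]
      have hz : zpowers (pw x p) = zpowers x := by
        apply Subgroup.eq_of_le_of_card_ge
        · rw [zpowers_le]
          exact zpow_mem (mem_zpowers x) _
        · rw [Nat.card_zpowers, Nat.card_zpowers, hx, orderOf_pw hx hp0]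
      have hk0 : k ≠ 0 := by
        rintro rfl
        rw [pw_zero] at hc
        have h5 : pw x p = 1 := by
          calc pw x p = c⁻¹ * (c * pw x p * c⁻¹) * c := by group
            _ = 1 := by rw [hc]; group
        exact hp0 (pw_inj hx (by rw [h5, pw_zero]))
      have hz2 : zpowers (pw x k) = zpowers x := by
        apply Subgroup.eq_of_le_of_card_ge
        · rw [zpowers_le]
          exact zpow_mem (mem_zpowers x) _
        · rw [Nat.card_zpowers, Nat.card_zpowers, hx, orderOf_pw hx hk0]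
      have hmap : (zpowers x).map (MulAut.conj c).toMonoidHom = zpowers x := by
        conv_lhs => rw [← hz]
        rw [MonoidHom.map_zpowers]
        change zpowers (c * pw x p * c⁻¹) = _
        rw [hc, hz2]
      intro y
      constructor
      · intro hy
        have : c * y * c⁻¹ ∈ (zpowers x).map (MulAut.conj c).toMonoidHom := ⟨y, hy, rfl⟩
        rwa [hmap] at this
      · intro hy
        have hy2 : c * y * c⁻¹ ∈ (zpowers x).map (MulAut.conj c).toMonoidHom := by
          rw [hmap]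
          exact hy
        obtain ⟨z, hz, hzy⟩ := hy2
        have : z = y := (MulAut.conj c).injective hzy
        rwa [← this]
    obtain ⟨e, he, he2⟩ := hexp c hcN
    rw [pw_conj, he, pw_mul hx] at hc
    have h5 := pw_inj hx hc
    rcases he2 with rfl | rfl | rfl
    · left; rw [← h5, one_mul]
    · right; left; exact h5.symm
    · right; right; exact h5.symm
  · have h3' : Fact (Nat.Prime 3) := ⟨Nat.prime_three⟩
    obtain ⟨n, hn⟩ := exists_prime_orderOf_dvd_card' (G := N) 3 (by rw [h4]; norm_num)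
    have hnS : orderOf (n : S) = 3 := by rw [Subgroup.orderOf_coe, hn]
    obtain ⟨e, he, he2⟩ := hexp n n.2
    rcases he2 with rfl | rfl | rfl
    · exfalso
      rw [pw_one] at he
      have h11 : (n : S) ∈ centralizer ({x} : Set S) := by
        rw [mem_centralizer_singleton_iff]
        calc (n : S) * x = ((n : S) * x * (n : S)⁻¹) * n := by group
          _ = x * n := by rw [he]
      have h12 := orderOf_dvd_natCard (⟨(n : S), h11⟩ : centralizer ({x} : Set S))
      rw [hsc x hx, Subgroup.orderOf_mk, hnS] at h12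
      norm_num at h12
    · exact ⟨n, he⟩
    · refine ⟨(n : S) * n, ?_⟩
      calc (n : S) * n * x * ((n : S) * n)⁻¹ = n * (n * x * (n : S)⁻¹) * (n : S)⁻¹ := by group
        _ = pw x 2 := by
          rw [he, pw_conj, he, pw_mul hx]
          congr 1

/-- **a diagonal intersection of order 7** -/
theorem diag_false {T : Type*} [Group T] [Finite T] {S : Type*} [Group S] [Finite S] (hS : Nat.card S = 168)
    {A M : Subgroup T} {φ : S × S →* T} (hφ : Function.Injective φ) (hr : φ.range = A)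
    (hfac : ∀ t : T, ∃ x ∈ A, ∃ y ∈ M, t = x * y) {a b c : T} (hab : Pr T 7 a b) (h3 : ¬ 7 ^ 3 ∣ Nat.card T)
    (hca : c * a * c⁻¹ = a) (hcb : c * b * c⁻¹ = b ^ (3 : ℤ)) (hpM : ¬ 7 ^ 2 ∣ Nat.card M)
    (hd : Dg S 7 (M.comap φ)) (hH : Nat.card (M.comap φ) = 7) : False := by
  have hp : Nat.Prime 7 := by norm_num
  have hp' : Fact (Nat.Prime 7) := ⟨hp⟩
  obtain ⟨h0, hh0⟩ := exists_prime_orderOf_dvd_card' (G := M.comap φ) 7 (by rw [hH])
  obtain ⟨⟨x, y⟩, hxyM⟩ := h0
  have hord : orderOf ((x, y) : S × S) = 7 := by rw [← hh0]; exact (Subgroup.orderOf_mk _ hxyM).symm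
  have hxy7 : (x ^ 7 = 1) ∧ (y ^ 7 = 1) := by
    have h1 : ((x, y) : S × S) ^ 7 = 1 := by rw [← hord, pow_orderOf_eq_one]
    exact ⟨congrArg Prod.fst h1, congrArg Prod.snd h1⟩
  have hx : orderOf x = 7 := by
    apply orderOf_eq_prime hxy7.1
    rintro rfl
    apply hd.k2
    have hy : orderOf y = 7 := orderOf_eq_prime hxy7.2 (by
      rintro rfl
      have : ((1, 1) : S × S) = 1 := rfl
      rw [this, orderOf_one] at hord
      norm_num at hord)
    have h1 := (K2 (M.comap φ)).orderOf_dvd_natCard (x := y) hxyM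
    rwa [hy] at h1
  have hy : orderOf y = 7 := by
    apply orderOf_eq_prime hxy7.2
    rintro rfl
    apply hd.k1
    have h1 := (K1 (M.comap φ)).orderOf_dvd_natCard (x := x) hxyM
    rwa [hx] at h1
  obtain ⟨nx, cx, hcx⟩ := norm_exp hS hd.sc hx
  obtain ⟨ny, cy, hcy⟩ := norm_exp hS hd.sc hy
  have hpr := pr_of hφ hp hx hy
  -- the elements of `⟨x⟩ × ⟨y⟩`
  let X : Z7 → Z7 → T := fun p q => φ (pw x p, pw y q)
  have hXA : ∀ p q, X p q ∈ A := fun p q => by rw [← hr]; exact ⟨_, rfl⟩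
  have hX1 : X 1 1 = φ (x, y) := by simp only [X, pw_one]
  have hXadd : ∀ p q p' q', X (p + p') (q + q') = X p q * X p' q' := by
    intro p q p' q'
    simp only [X]
    rw [← map_mul, pw_add hx, pw_add hy]
    rfl
  have hXpw : ∀ p q i, pw (X p q) i = X (p * i) (q * i) := by
    intro p q i
    simp only [X]
    rw [← pw_map]
    congr 1
    rw [pw]
    exact Prod.ext (by change (pw x p) ^ (i.val : ℤ) = _; rw [← pw_mul hx]; rfl)
      (by change (pw y q) ^ (i.val : ℤ) = _; rw [← pw_mul hy]; rfl)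
  have hm0 : orderOf (φ (x, y)) = 7 := by rw [orderOf_injective φ hφ, hord]
  have hm0A : φ (x, y) ∈ A := by rw [← hr]; exact ⟨_, rfl⟩
  -- the conjugates of `φ (x, y)` in `⟨x⟩ × ⟨y⟩`
  let Z : Z7 → Z7 → Prop := fun p q => ∃ t : T, t * φ (x, y) * t⁻¹ = X p q
  have hZ1 : ∀ p q, Z p q → bad p q = false := by
    rintro p q ⟨t, ht⟩
    obtain ⟨c', hc'A, hc'⟩ := gp hfac hm0A hxyM hm0 hpM (t := t) (by rw [ht]; exact hXA p q)
    rw [ht] at hc'
    rw [← hr] at hc'A
    obtain ⟨⟨c1, c2⟩, rfl⟩ := hc'A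
    obtain ⟨k, hk⟩ := mem_zpowers_iff.1 hc'
    rw [← pw_int hm0, ← hX1, hXpw, one_mul] at hk
    simp only [X] at hk
    rw [← map_inv, ← map_mul, ← map_mul] at hk
    have hk' := hφ hk
    have hk1 : pw x (k : Z7) = c1 * pw x p * c1⁻¹ := congrArg Prod.fst hk'
    have hk2 : pw y (k : Z7) = c2 * pw y q * c2⁻¹ := congrArg Prod.snd hk'
    have hk0 : (k : Z7) ≠ 0 := by
      intro h0
      rw [h0, pw_zero] at hk1 hk2
      have hp1 : pw x p = 1 := by
        calc pw x p = c1⁻¹ * (c1 * pw x p * c1⁻¹) * c1 := by group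
          _ = 1 := by rw [← hk1]; group
      have hq1 : pw y q = 1 := by
        calc pw y q = c2⁻¹ * (c2 * pw y q * c2⁻¹) * c2 := by group
          _ = 1 := by rw [← hk2]; group
      have h1 : φ (x, y) = 1 := by
        calc φ (x, y) = t⁻¹ * (t * φ (x, y) * t⁻¹) * t := by group
          _ = 1 := by
            rw [ht]
            simp only [X, hp1, hq1]
            have : ((1, 1) : S × S) = 1 := rfl
            rw [this, map_one]
            group
      rw [h1, orderOf_one] at hm0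
      norm_num at hm0
    have hp0 : p ≠ 0 := by
      rintro rfl
      apply hk0
      apply pw_inj hx
      rw [hk1, pw_zero, mul_one, mul_inv_cancel]
    have hq0 : q ≠ 0 := by
      rintro rfl
      apply hk0
      apply pw_inj hy
      rw [hk2, pw_zero, mul_one, mul_inv_cancel]
    have e1 := nx c1 p k hp0 hk1.symm
    have e2 := ny c2 q k hq0 hk2.symm
    exact key_bad p q k hp0 e1 e2
  have hZ2 : ∀ q : Z7, (q = 1 ∨ q = 2 ∨ q = 4) → Z 1 q := by
    have h1 : ∀ q : Z7, Z 1 q → Z 1 (q * 2) := by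
      rintro q ⟨t, ht⟩
      refine ⟨φ (1, cy) * t, ?_⟩
      calc φ (1, cy) * t * φ (x, y) * (φ (1, cy) * t)⁻¹ = φ (1, cy) * (t * φ (x, y) * t⁻¹) * (φ (1, cy))⁻¹ := by
            group
        _ = X 1 (q * 2) := by
          rw [ht]
          simp only [X]
          rw [← map_inv, ← map_mul, ← map_mul]
          congr 1
          refine Prod.ext (by simp) ?_
          change cy * pw y q * cy⁻¹ = pw y (q * 2)
          rw [pw_conj, hcy, pw_mul hy, mul_comm]
    have h0 : Z 1 1 := ⟨1, by rw [hX1]; group⟩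
    rintro q (rfl | rfl | rfl)
    · exact h0
    · have := h1 1 h0
      rwa [one_mul] at this
    · have := h1 _ (h1 1 h0)
      rwa [one_mul, two_two] at this
  -- coordinates of `a`, `b`
  obtain ⟨τ, hτ⟩ := exists_conj h3 (hab.card hp) (hpr.card hp)
  have hcoord : ∀ z ∈ Q a b, ∃ p q : Z7, τ * z * τ⁻¹ = X p q := by
    intro z hz
    have h1 : τ * z * τ⁻¹ ∈ Q (φ (x, 1)) (φ (1, y)) := by
      rw [← hτ]
      exact ⟨z, hz, rfl⟩
    obtain ⟨i, j, hij⟩ := (mem_Q hpr.comm).1 h1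
    refine ⟨(i : Z7), (j : Z7), ?_⟩
    rw [hij]
    simp only [X]
    rw [← map_zpow, ← map_zpow, ← map_mul, pw_int hx, pw_int hy]
    congr 1
    exact Prod.ext (by simp) (by simp)
  obtain ⟨a1, a2, ha⟩ := hcoord a (mem_sup_left (mem_zpowers a))
  obtain ⟨b1, b2, hb⟩ := hcoord b (mem_sup_right (mem_zpowers b))
  have hB : ∀ i j : Z7, τ * (pw a i * pw b j) * τ⁻¹ = X (i * a1 + j * b1) (i * a2 + j * b2) := by
    intro i j
    have h1 : τ * (pw a i * pw b j) * τ⁻¹ = (τ * pw a i * τ⁻¹) * (τ * pw b j * τ⁻¹) := by group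
    rw [h1, pw_conj, pw_conj, ha, hb, hXpw, hXpw, ← hXadd, mul_comm a1, mul_comm b1, mul_comm a2, mul_comm b2]
  have hcpw : ∀ i j : Z7, ∀ n : ℕ, c ^ n * (pw a i * pw b j) * (c ^ n)⁻¹ = pw a i * pw b ((3 : Z7) ^ n * j) := by
    intro i j n
    induction n with
    | zero => simp
    | succ n ih =>
      have h1 : c ^ (n + 1) * (pw a i * pw b j) * (c ^ (n + 1))⁻¹ =
          c * (c ^ n * (pw a i * pw b j) * (c ^ n)⁻¹) * c⁻¹ := by rw [pow_succ']; group
      have h2 : ∀ k : Z7, c * (pw a i * pw b k) * c⁻¹ = pw a i * pw b (3 * k) := by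
        intro k
        have h3 : c * (pw a i * pw b k) * c⁻¹ = (c * pw a i * c⁻¹) * (c * pw b k * c⁻¹) := by group
        rw [h3, pw_conj, pw_conj, hca, hcb]
        have h4 : b ^ (3 : ℤ) = pw b 3 := by
          have := pw_int hab.ob 3
          rw [← this]
          rfl
        rw [h4, pw_mul hab.ob]
      rw [h1, ih, h2, pow_succ', mul_assoc]
  rcases comb a1 a2 b1 b2 with ⟨i, j, hij, h1, h2⟩ | ⟨i, j, j', hj, hj', h1, h2, h4⟩
  · -- independence
    have h5 := hB i j
    rw [h1, h2] at h5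
    simp only [X, pw_zero] at h5
    have h6 : ((1, 1) : S × S) = 1 := rfl
    rw [h6, map_one] at h5
    have h7 : pw a i * pw b j = 1 := by
      calc pw a i * pw b j = τ⁻¹ * (τ * (pw a i * pw b j) * τ⁻¹) * τ := by group
        _ = 1 := by rw [h5]; group
    obtain ⟨h8, h9⟩ := hab.indep hp h7
    apply hij
    constructor
    · have := (ZMod.intCast_zmod_eq_zero_iff_dvd _ 7).2 h8
      simpa using this
    · have := (ZMod.intCast_zmod_eq_zero_iff_dvd _ 7).2 h9
      simpa using this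
  · -- a conjugate with bad coordinates
    obtain ⟨t, ht⟩ := hZ2 _ h2
    obtain ⟨n, hn⟩ := pow_three j j' hj hj'
    have h5 : Z (i * a1 + j' * b1) (i * a2 + j' * b2) := by
      refine ⟨τ * c ^ (n : ℕ) * τ⁻¹ * t, ?_⟩
      have h6 : X 1 (i * a2 + j * b2) = τ * (pw a i * pw b j) * τ⁻¹ := by rw [hB, h1]
      calc τ * c ^ (n : ℕ) * τ⁻¹ * t * φ (x, y) * (τ * c ^ (n : ℕ) * τ⁻¹ * t)⁻¹
          = τ * c ^ (n : ℕ) * τ⁻¹ * (t * φ (x, y) * t⁻¹) * (τ * c ^ (n : ℕ) * τ⁻¹)⁻¹ := by group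
        _ = τ * (c ^ (n : ℕ) * (pw a i * pw b j) * (c ^ (n : ℕ))⁻¹) * τ⁻¹ := by rw [ht, h6]; group
        _ = X (i * a1 + j' * b1) (i * a2 + j' * b2) := by rw [hcpw, hn, hB]
    rw [hZ1 _ _ h5] at h4
    exact absurd h4 (by decide)

end Cfsg.Agent.H354.Fac
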