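import Cfsg.Agent.H354.Fac.Cases
import Cfsg.Agent.LieClassical.FieldTransfer

/-!
# The data in a group: two commuting elements of order `p` (helper354, S3679)
-/

set_option autoImplicit false

namespace Cfsg.Agent.H354.Fac

open Subgroup
open Cfsg.Agent.OrdDiv
open Cfsg.Agent.H899.CG
open Cfsg.Agent.H257.El (Known)

/-- `a`, `b` of order `p`, swapped by `s`, `c` centralizes `a` and maps `b` to `b ^ k`, `C(a, b) ≤ ⟨a, b⟩` -/
def GD (G : Type*) [Group G] (p : ℕ) (k : ℤ) : Prop :=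
  ∃ a b s c : G, Pr G p a b ∧ s * a * s⁻¹ = b ∧ c * a * c⁻¹ = a ∧ c * b * c⁻¹ = b ^ k ∧
    (∀ z, z * a = a * z → z * b = b * z → z ∈ Q a b) ∧ ¬ (p : ℤ) ∣ k - 1

variable {G : Type*} [Group G] {p : ℕ} {k : ℤ}

theorem mem_Q_map {G' : Type*} [Group G'] (e : G ≃* G') {a b z : G} : e z ∈ Q (e a) (e b) ↔ z ∈ Q a b := by
  have h : Q (e a) (e b) = (Q a b).map e.toMonoidHom := by
    rw [Q, Q, Subgroup.map_sup, MonoidHom.map_zpowers, MonoidHom.map_zpowers]
    rfl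
  rw [h]
  constructor
  · rintro ⟨y, hy, hyz⟩
    have : y = z := e.injective hyz
    rwa [← this]
  · intro hz
    exact ⟨z, hz, rfl⟩

theorem GD.congr {G' : Type*} [Group G'] (e : G ≃* G') (h : GD G p k) : GD G' p k := by
  obtain ⟨a, b, s, c, h1, h2, h3, h4, h5, h6⟩ := h
  refine ⟨e a, e b, e s, e c, ⟨?_, ?_, ?_, ?_⟩, ?_, ?_, ?_, ?_, h6⟩
  · rw [MulEquiv.orderOf_eq, h1.oa]
  · rw [MulEquiv.orderOf_eq, h1.ob]
  · rw [← map_mul, h1.comm, map_mul]
  · intro hb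
    apply h1.nmem
    obtain ⟨i, hi⟩ := mem_zpowers_iff.1 hb
    exact mem_zpowers_iff.2 ⟨i, e.injective (by rw [map_zpow, hi])⟩
  · rw [← map_inv, ← map_mul, ← map_mul, h2]
  · rw [← map_inv, ← map_mul, ← map_mul, h3]
  · rw [← map_inv, ← map_mul, ← map_mul, h4, map_zpow]
  · intro z hza hzb
    obtain ⟨y, rfl⟩ := e.surjective z
    rw [mem_Q_map]
    exact h5 y (e.injective (by rw [map_mul, map_mul, hza])) (e.injective (by rw [map_mul, map_mul, hzb]))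

theorem GD.center_eq_bot (hp : p.Prime) (h : GD G p k) : center G = ⊥ := by
  obtain ⟨a, b, s, c, h1, h2, h3, h4, h5, h6⟩ := h
  rw [eq_bot_iff]
  intro z hz
  rw [mem_center_iff] at hz
  obtain ⟨i, j, rfl⟩ := (mem_Q h1.comm).1 (h5 z (hz a).symm (hz b).symm)
  have hcz : c * (a ^ i * b ^ j) * c⁻¹ = a ^ i * b ^ j := by rw [hz c]; group
  have h7 : c * (a ^ i * b ^ j) * c⁻¹ = a ^ i * b ^ (k * j) := by
    calc c * (a ^ i * b ^ j) * c⁻¹ = (c * a ^ i * c⁻¹) * (c * b ^ j * c⁻¹) := by group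
      _ = _ := by rw [← conj_zpow, ← conj_zpow, h3, h4, zpow_mul]
  rw [h7] at hcz
  have h8 : a ^ (0 : ℤ) * b ^ (k * j - j) = 1 := by
    rw [zpow_zero, one_mul, zpow_sub, mul_left_cancel hcz, mul_inv_cancel]
  have h9 : (p : ℤ) ∣ j := by
    have h10 := (h1.indep hp h8).2
    have h11 : k * j - j = (k - 1) * j := by ring
    rw [h11] at h10
    exact ((Nat.prime_iff_prime_int.1 hp).dvd_or_dvd h10).resolve_left h6
  have hb : b ^ j = 1 := by rw [← orderOf_dvd_iff_zpow_eq_one, h1.ob]; exact h9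
  rw [hb, mul_one] at hz ⊢
  have h12 : s * a ^ i * s⁻¹ = a ^ i := by rw [hz s]; group
  rw [← conj_zpow, h2] at h12
  have h13 : a ^ (-i) * b ^ i = 1 := by rw [h12, ← zpow_add, neg_add_cancel, zpow_zero]
  have h14 := (h1.indep hp h13).2
  rw [mem_bot, ← orderOf_dvd_iff_zpow_eq_one, h1.oa]
  exact h14

/-- the quotient by the center -/
theorem GD.quot (hp : p.Prime) (h : GD G p k) : GD (G ⧸ center G) p k := by
  have h1 := h.center_eq_bot hp
  have e : G ≃* G ⧸ center G := by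
    refine MulEquiv.ofBijective (QuotientGroup.mk' (center G)) ⟨?_, QuotientGroup.mk'_surjective _⟩
    rw [← MonoidHom.ker_eq_bot_iff, QuotientGroup.ker_mk', h1]
  exact h.congr e

section fac

variable {T : Type} [Group T] [Finite T]

/-- the data of a factorization -/
theorem GD.red (tab : OrderTable.{0}) (known : Known.{0}) [hp : Fact p.Prime] {a b s c : T} (h1 : Pr T p a b)
    (h2 : s * a * s⁻¹ = b) (h3 : c * a * c⁻¹ = a) (h4 : c * b * c⁻¹ = b ^ k)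
    (h5 : ∀ z, z * a = a * z → z * b = b * z → z ∈ Q a b) (h6 : ¬ (p : ℤ) ∣ k - 1) {n m d : ℕ}
    {l : List (ℕ × ℕ)} (hn : Nat.card T = n) (hnm : n = m ^ 2 * d) (hm : m ≠ 0) (hd : Squarefree d)
    (hv : OrdDiv.valid l m = true) (hp3 : ¬ p ^ 3 ∣ n) {kk : ℕ} (hpk : p ∣ kk) (hpk2 : ¬ p ^ 2 ∣ kk)
    {S : Type} [Group S] [Finite S] (hna : ¬ IsMulCommutative S) (hS : IsSimpleGroup S) {A M : Subgroup T} {j : ℕ}
    (hk : M.index = kk) (hF : Fac T A M S j) :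
    Fac T A M S 2 ∧ p ∣ Nat.card S ∧ ¬ p ^ 2 ∣ Nat.card M ∧ (∃ g ∈ cands l m, Nat.card S = ordN g) ∧
      ∃ φ : S × S →* T, Function.Injective φ ∧ φ.range = A ∧ Dg S p (M.comap φ) ∧
        kk * Nat.card (M.comap φ) = Nat.card S ^ 2 := by
  subst hk
  -- `j = 2`
  have hpS : p ∣ Nat.card S := hp.out.dvd_of_dvd_pow (hpk.trans hF.index_dvd)
  have hj : j = 2 := by
    have h7 := hF.two_le
    have h8 : ¬ 3 ≤ j := fun h3j => hp3 (((pow_dvd_pow p h3j).trans (pow_dvd_pow_of_dvd hpS j)).trans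
      (hn ▸ hF.pow_dvd_card))
    omega
  subst hj
  have hpM : ¬ p ^ 2 ∣ Nat.card M := by
    intro hd2
    apply hp3
    rw [← hn, ← Subgroup.card_mul_index M, pow_succ]
    exact mul_dvd_mul hd2 hpk
  obtain ⟨φ, hφ, hr⟩ := exists_phi hF
  have hcard := card_comap hF hφ hr
  have hpH : p ∣ Nat.card (M.comap φ) := by
    by_contra hcon
    apply hpk2
    have h7 : p ^ 2 ∣ M.index * Nat.card (M.comap φ) := by
      rw [hcard]
      exact pow_dvd_pow_of_dvd hpS 2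
    exact (Nat.Coprime.pow_left 2 ((Nat.Prime.coprime_iff_not_dvd hp.out).2 hcon)).dvd_of_dvd_mul_right h7
  have hdg := dg_of_fac hφ hr hF.fac h1 (by rw [hn]; exact hp3) (fuse_of hp.out h1 h2 h3 h4 h6) h5 hpM hpH
  -- the order of `S`
  have h7 : Nat.card S ^ 2 ∣ m ^ 2 * d := by
    rw [← hnm, ← hn]
    exact hF.pow_dvd_card
  obtain ⟨g, hg, -, hgS⟩ := exists_good tab (known S) (fun h => hna ⟨⟨h⟩⟩) hv (dvd_of_sq_dvd hm hd h7)
  exact ⟨hF, hpS, hpM, ⟨g, hg, hgS⟩, φ, hφ, hr, hdg, hcard⟩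

/-- **the exclusion of a factorization by the data and the numerical check** -/
theorem GD.false (tab : OrderTable.{0}) (known : Known.{0}) [hp : Fact p.Prime] (h : GD T p k) {n m d : ℕ}
    {l : List (ℕ × ℕ)} (hn : Nat.card T = n) (hnm : n = m ^ 2 * d) (hm : m ≠ 0) (hd : Squarefree d)
    (hv : OrdDiv.valid l m = true) (hp3 : ¬ p ^ 3 ∣ n) {kk : ℕ} (hpk : p ∣ kk) (hpk2 : ¬ p ^ 2 ∣ kk)
    (W : List (ℕ × ℕ)) (hc : ((cands l m).all fun g => !decide (p ∣ ordN g) || W.any (chk p kk (ordN g))) = true)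
    {S : Type} [Group S] [Finite S] (hS : IsSimpleGroup S) (hna : ¬ IsMulCommutative S) {A M : Subgroup T} {j : ℕ}
    (hk : M.index = kk) (hF : Fac T A M S j) : False := by
  obtain ⟨a, b, s, c, h1, h2, h3, h4, h5, h6⟩ := h
  obtain ⟨-, hpS, -, ⟨g, hg, hgS⟩, φ, hφ, hr, hdg, hcard⟩ := GD.red tab known h1 h2 h3 h4 h5 h6 hn hnm hm hd hv hp3
    hpk hpk2 hna hS hk hF
  rw [List.all_eq_true] at hc
  have h8 := hc g hg
  rw [← hgS, Bool.or_eq_true] at h8
  rcases h8 with h8 | h8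
  · simp only [Bool.not_eq_true', decide_eq_false_iff_not] at h8
    exact h8 hpS
  · rw [List.any_eq_true] at h8
    obtain ⟨w, -, hw⟩ := h8
    exact hdg.false_of_chk hS hna rfl hcard hw

end fac

end Cfsg.Agent.H354.Fac
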