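import Cfsg.Agent.H354.Fac.Count
import Cfsg.Agent.SmallSimple.Embed

/-!
# Subgroups of `S × S` of order divisible by `p`, meeting both factors in `p'`-groups (helper354, S3679)

`S` simple, elements of order `p` self-centralizing (`SC p S`), `p ∥ |H|`, `H ≤ S × S`,
`K1 = H ∩ S × 1`, `K2 = H ∩ 1 × S`, `L1`, `L2` the projections.
-/

set_option autoImplicit false
set_option maxRecDepth 100000

namespace Cfsg.Agent.H354.Fac

open Subgroup
open Cfsg.Agent.H537.Cop (SC)
open Cfsg.Agent.H257.El (exists_normalizer exists_comm_of_normalizer)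

section gour

variable {S : Type*} [Group S]

/-- the intersection with the first factor -/
def K1 (H : Subgroup (S × S)) : Subgroup S := H.comap (MonoidHom.inl S S)

/-- the intersection with the second factor -/
def K2 (H : Subgroup (S × S)) : Subgroup S := H.comap (MonoidHom.inr S S)

/-- the first projection -/
def L1 (H : Subgroup (S × S)) : Subgroup S := H.map (MonoidHom.fst S S)

/-- the second projection -/
def L2 (H : Subgroup (S × S)) : Subgroup S := H.map (MonoidHom.snd S S)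

variable {H : Subgroup (S × S)}

theorem mem_K1 {s : S} : s ∈ K1 H ↔ (s, (1 : S)) ∈ H := Iff.rfl

theorem mem_K2 {s : S} : s ∈ K2 H ↔ ((1 : S), s) ∈ H := Iff.rfl

theorem mem_L1 {s : S} : s ∈ L1 H ↔ ∃ t, (s, t) ∈ H := by
  constructor
  · rintro ⟨⟨a, b⟩, h, rfl⟩
    exact ⟨b, h⟩
  · rintro ⟨t, h⟩
    exact ⟨(s, t), h, rfl⟩

theorem mem_L2 {s : S} : s ∈ L2 H ↔ ∃ t, (t, s) ∈ H := by
  constructor
  · rintro ⟨⟨a, b⟩, h, rfl⟩
    exact ⟨a, h⟩
  · rintro ⟨t, h⟩
    exact ⟨(t, s), h, rfl⟩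

/-- the swap -/
def sw (H : Subgroup (S × S)) : Subgroup (S × S) := H.comap (MulEquiv.prodComm (M := S) (N := S)).toMonoidHom

theorem mem_sw {a b : S} : (a, b) ∈ sw H ↔ (b, a) ∈ H := Iff.rfl

theorem K1_sw : K1 (sw H) = K2 H := rfl

theorem K2_sw : K2 (sw H) = K1 H := rfl

theorem L1_sw : L1 (sw H) = L2 H := by
  ext s
  rw [mem_L1, mem_L2]
  rfl

theorem L2_sw : L2 (sw H) = L1 H := by
  ext s
  rw [mem_L1, mem_L2]
  rfl

theorem card_sw [Finite S] : Nat.card (sw H) = Nat.card H :=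
  Nat.card_congr
    { toFun := fun x => ⟨(x.1.2, x.1.1), x.2⟩
      invFun := fun x => ⟨(x.1.2, x.1.1), x.2⟩
      left_inv := fun _ => rfl
      right_inv := fun _ => rfl }

theorem card_K1_mul_L2 [Finite S] : Nat.card (K1 H) * Nat.card (L2 H) = Nat.card H := by
  let f : H →* S := (MonoidHom.snd S S).comp H.subtype
  have h1 := Subgroup.card_mul_index f.ker
  rw [Subgroup.index_ker] at h1
  have h2 : Nat.card f.ker = Nat.card (K1 H) := by
    refine Nat.card_congr ?_
    exact
      { toFun := fun x => ⟨x.1.1.1, by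
          have h3 : x.1.1.2 = 1 := x.2
          rw [mem_K1, ← h3]
          exact x.1.2⟩
        invFun := fun x => ⟨⟨(x.1, 1), x.2⟩, rfl⟩
        left_inv := fun x => by
          have h3 : x.1.1.2 = 1 := x.2
          apply Subtype.ext
          apply Subtype.ext
          exact Prod.ext rfl h3.symm
        right_inv := fun x => rfl }
  have h3 : Nat.card f.range = Nat.card (L2 H) := by
    have h4 : f.range = L2 H := by
      ext s
      rw [mem_L2]
      constructor
      · rintro ⟨⟨⟨a, b⟩, h⟩, rfl⟩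
        exact ⟨a, h⟩
      · rintro ⟨t, h⟩
        exact ⟨⟨(t, s), h⟩, rfl⟩
    rw [h4]
  rw [← h2, ← h3]
  exact h1

theorem card_K2_mul_L1 [Finite S] : Nat.card (K2 H) * Nat.card (L1 H) = Nat.card H := by
  rw [← card_sw, ← K1_sw, ← L2_sw, card_K1_mul_L2]

theorem K1_le_L1 : K1 H ≤ L1 H := fun s hs => mem_L1.2 ⟨1, hs⟩

theorem L1_le : L1 H ≤ normalizer (K1 H : Set S) := by
  intro _ hs
  obtain ⟨t, ht⟩ := mem_L1.1 hs
  rw [mem_normalizer_iff]
  intro x
  rw [mem_K1, mem_K1]
  constructor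
  · intro hx
    have := H.mul_mem (H.mul_mem ht hx) (H.inv_mem ht)
    simpa using this
  · intro hx
    have := H.mul_mem (H.mul_mem (H.inv_mem ht) hx) ht
    simpa [mul_assoc] using this

/-- the Sylow orders of a `p'`-group normalised by a self-centralizing element of order `p` -/
theorem sylow_mod [Finite S] {p r : ℕ} (hp : p.Prime) (hr : r.Prime) (hsc : SC p S) {K L : Subgroup S} (hKL : K ≤ L)
    (hn : L ≤ normalizer (K : Set S)) (hpL : p ∣ Nat.card L) (hpK : ¬ p ∣ Nat.card K) :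
    r ^ (Nat.card K).factorization r % p = 1 := by
  have hp' : Fact p.Prime := ⟨hp⟩
  have hr' : Fact r.Prime := ⟨hr⟩
  have hN : (K.subgroupOf L).Normal := Subgroup.normal_subgroupOf_of_le_normalizer hn
  have hc : Nat.card (K.subgroupOf L) = Nat.card K := Nat.card_congr (Subgroup.subgroupOfEquivOfLe hKL).toEquiv
  obtain ⟨R⟩ : Nonempty (Sylow r (K.subgroupOf L)) := inferInstance
  obtain ⟨y, hy, hyR⟩ := exists_normalizer hpL (K.subgroupOf L) (by rw [hc]; exact hpK) R
  set P : Subgroup L := (R : Subgroup (K.subgroupOf L)).map (K.subgroupOf L).subtype with hP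
  have hPp : IsPGroup r P := R.isPGroup'.map _
  have hPc : Nat.card P = r ^ (Nat.card K).factorization r := by
    rw [hP, Subgroup.card_map_of_injective (K.subgroupOf L).subtype_injective, ← hc]
    exact R.card_eq_multiplicity
  rw [← hPc]
  by_contra hm
  obtain ⟨w, hwP, hw, hyw⟩ := exists_comm_of_normalizer hp hr hy hPp hyR hm
  -- `r` divides `|K|`
  have hrK : r ∣ Nat.card K := by
    rw [← hc, ← hw]
    obtain ⟨w', -, rfl⟩ := hwP
    rw [(K.subgroupOf L).subtype_apply, Subgroup.orderOf_coe]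
    exact orderOf_dvd_natCard w'
  have hrp : r ≠ p := fun h => hpK (h ▸ hrK)
  have h1 : (w : S) ∈ centralizer ({(y : S)} : Set S) := by
    rw [mem_centralizer_singleton_iff]
    exact congrArg Subtype.val hyw.symm
  have h2 := orderOf_dvd_natCard (⟨(w : S), h1⟩ : centralizer ({(y : S)} : Set S))
  rw [hsc (y : S) (by rw [Subgroup.orderOf_coe]; exact hy), Subgroup.orderOf_mk, Subgroup.orderOf_coe, hw] at h2
  exact hrp ((Nat.prime_dvd_prime_iff_eq hr hp).1 h2)

/-- the situation -/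
structure Dg (S : Type*) [Group S] (p : ℕ) (H : Subgroup (S × S)) : Prop where
  prime : p.Prime
  sc : SC p S
  dvd : p ∣ Nat.card H
  k1 : ¬ p ∣ Nat.card (K1 H)
  k2 : ¬ p ∣ Nat.card (K2 H)

variable [Finite S] {p : ℕ}

theorem Dg.sw (h : Dg S p H) : Dg S p (sw H) := ⟨h.prime, h.sc, by rw [card_sw]; exact h.dvd, h.k2, h.k1⟩

theorem Dg.dvd_L2 (h : Dg S p H) : p ∣ Nat.card (L2 H) := by
  have h1 := h.dvd
  rw [← card_K1_mul_L2] at h1
  exact (h.prime.dvd_mul.1 h1).resolve_left h.k1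

theorem Dg.dvd_L1 (h : Dg S p H) : p ∣ Nat.card (L1 H) := by
  rw [← L2_sw]
  exact h.sw.dvd_L2

theorem Dg.mod (h : Dg S p H) {r : ℕ} (hr : r.Prime) : r ^ (Nat.card (K1 H)).factorization r % p = 1 :=
  sylow_mod h.prime hr h.sc K1_le_L1 L1_le h.dvd_L1 h.k1

/-- **rule B** -/
theorem Dg.ruleB (h : Dg S p H) {r e : ℕ} (hr : r.Prime) (hs : ¬ r ^ (e + 1) ∣ Nat.card S)
    (hh : r ^ (e + 1) ∣ Nat.card H) (hm : ∀ f, 1 ≤ f → f ≤ e → r ^ f % p ≠ 1) : False := by
  have h1 := h.mod hr
  set f := (Nat.card (K1 H)).factorization r with hf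
  have hfe : f ≤ e := by
    by_contra hlt
    apply hs
    refine (pow_dvd_pow r (by omega : e + 1 ≤ f)).trans ((Nat.ordProj_dvd _ r).trans ?_)
    exact Subgroup.card_subgroup_dvd_card _
  have hf0 : f = 0 := by
    by_contra h0
    exact hm f (by omega) hfe h1
  apply hs
  have h2 : ¬ r ∣ Nat.card (K1 H) := by
    intro hd
    have := (hr.dvd_iff_one_le_factorization Nat.card_pos.ne').1 hd
    omega
  rw [← card_K1_mul_L2] at hh
  exact ((Nat.Coprime.pow_left _ ((Nat.Prime.coprime_iff_not_dvd hr).2 h2)).dvd_of_dvd_mul_left hh).trans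
    (Subgroup.card_subgroup_dvd_card _)

/-- **rule C** -/
theorem Dg.ruleC (h : Dg S p H) {m : ℕ} (hm : Nat.card H ∣ m * p) (hc : ∀ r ∈ m.primeFactors, ∀ f ∈ Finset.Icc 1
    (m.factorization r), r ^ f % p ≠ 1) (hm0 : m ≠ 0) : Nat.card (L2 H) = Nat.card H := by
  have h3 : Nat.card (K1 H) ∣ m := by
    have h4 : Nat.card (K1 H) ∣ m * p := (Dvd.intro _ card_K1_mul_L2).trans hm
    exact (Nat.Coprime.symm ((Nat.Prime.coprime_iff_not_dvd h.prime).2 h.k1)).dvd_of_dvd_mul_right h4
  have h1 : Nat.card (K1 H) = 1 := by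
    by_contra hne
    obtain ⟨r, hr, hrK⟩ := Nat.exists_prime_and_dvd hne
    have h5 : r ∈ m.primeFactors := Nat.mem_primeFactors.2 ⟨hr, hrK.trans h3, hm0⟩
    refine hc r h5 _ (Finset.mem_Icc.2 ⟨?_, ?_⟩) (h.mod hr)
    · exact (hr.dvd_iff_one_le_factorization Nat.card_pos.ne').1 hrK
    · exact (Nat.factorization_le_iff_dvd Nat.card_pos.ne' hm0).2 h3 r
  have h2 := card_K1_mul_L2 (H := H)
  rw [h1, one_mul] at h2
  exact h2

/-- the order of the normalizer of a subgroup of order `p` -/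
theorem card_normalizer_dvd (hp : p.Prime) (hsc : SC p S) {x : S} (hx : orderOf x = p) :
    Nat.card (normalizer (zpowers x : Set S)) ∣ p * (p - 1) := by
  let φ : normalizer (zpowers x : Set S) →* MulAut (zpowers x) := (zpowers x).normalizerMonoidHom
  have hk : Nat.card φ.ker ∣ p := by
    rw [← hsc x hx, ← Subgroup.card_map_of_injective (normalizer (zpowers x : Set S)).subtype_injective]
    apply Subgroup.card_dvd_of_le
    rintro _ ⟨g, hg, rfl⟩
    rw [mem_centralizer_singleton_iff]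
    have h1 : φ g ⟨x, mem_zpowers x⟩ = ⟨x, mem_zpowers x⟩ := by
      have h2 : φ g = 1 := hg
      rw [h2]
      rfl
    have h2 : (g : S) * x * (g : S)⁻¹ = x := congrArg Subtype.val h1
    calc (g : S) * x = (g : S) * x * (g : S)⁻¹ * g := by group
      _ = x * g := by rw [h2]
  have hr : Nat.card φ.range ∣ p - 1 := by
    have h1 : Nat.card (MulAut (zpowers x)) = p - 1 := by
      rw [IsCyclic.card_mulAut, Nat.card_zpowers, hx, Nat.totient_prime hp]
    rw [← h1]
    exact Subgroup.card_subgroup_dvd_card _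
  rw [← Subgroup.card_mul_index φ.ker, Subgroup.index_ker]
  exact mul_dvd_mul hk hr

/-- **rule N** -/
theorem ruleN (hp : p.Prime) (hsc : SC p S) {L : Subgroup S} (hpS : ¬ p ^ 2 ∣ Nat.card S) (hpL : p ∣ Nat.card L) :
    ∃ m n, m ∣ Nat.card L ∧ p ∣ m ∧ (Nat.card L / m) % p = 1 ∧ m ∣ n ∧ n ∣ p * (p - 1) ∧ n ∣ Nat.card S ∧
      (Nat.card S / n) % p = 1 := by
  have hp' : Fact p.Prime := ⟨hp⟩
  obtain ⟨x, hx⟩ := exists_prime_orderOf_dvd_card' (G := L) p hpL
  have hxS : orderOf (x : S) = p := by rw [Subgroup.orderOf_coe, hx]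
  have h1 := index_modEq_one hpS (zpowers (x : S)) (by rw [Nat.card_zpowers, hxS])
  have h2 := index_modEq_one (S := L) (fun hd => hpS (hd.trans (Subgroup.card_subgroup_dvd_card L))) (zpowers x)
    (by rw [Nat.card_zpowers, hx])
  have h3 : normalizer (zpowers x : Set L) = (normalizer (zpowers (x : S) : Set S)).subgroupOf L := by
    have hz : ∀ y : L, y ∈ zpowers x ↔ (y : S) ∈ zpowers (x : S) := by
      intro y
      rw [mem_zpowers_iff, mem_zpowers_iff]
      constructor
      · rintro ⟨k, rfl⟩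
        exact ⟨k, by simp⟩
      · rintro ⟨k, hk⟩
        exact ⟨k, Subtype.ext (by simpa using hk)⟩
    ext g
    rw [Subgroup.mem_subgroupOf, mem_normalizer_iff, mem_normalizer_iff]
    constructor
    · intro h y
      constructor
      · intro hy
        have hyL : y ∈ L := (zpowers_le.2 x.2) hy
        exact (hz _).1 ((h ⟨y, hyL⟩).1 ((hz ⟨y, hyL⟩).2 hy))
      · intro hy
        have hyL : y ∈ L := by
          have h4 := L.mul_mem (L.mul_mem (L.inv_mem g.2) ((zpowers_le.2 x.2) hy)) g.2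
          simpa [mul_assoc] using h4
        exact (hz ⟨y, hyL⟩).1 ((h ⟨y, hyL⟩).2 ((hz _).2 hy))
    · intro h y
      rw [hz, hz]
      exact h y
  have h4 : (Nat.card L / Nat.card (normalizer (zpowers x : Set L))) % p = 1 := by
    rw [← Subgroup.index_mul_card (normalizer (zpowers x : Set L)), Nat.mul_div_cancel _ Nat.card_pos]
    rw [h2, Nat.mod_eq_of_lt hp.one_lt]
  have h5 : (Nat.card S / Nat.card (normalizer (zpowers (x : S) : Set S))) % p = 1 := by
    rw [← Subgroup.index_mul_card (normalizer (zpowers (x : S) : Set S)), Nat.mul_div_cancel _ Nat.card_pos]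
    rw [h1, Nat.mod_eq_of_lt hp.one_lt]
  refine ⟨_, _, Subgroup.card_subgroup_dvd_card (normalizer (zpowers x : Set L)), ?_, h4, ?_,
    card_normalizer_dvd hp hsc hxS, Subgroup.card_subgroup_dvd_card _, h5⟩
  · have h6 := Subgroup.card_dvd_of_le (Subgroup.le_normalizer (H := zpowers x))
    rwa [Nat.card_zpowers, hx] at h6
  · rw [h3, ← Subgroup.card_map_of_injective L.subtype_injective, Subgroup.subgroupOf_map_subtype]
    exact Subgroup.card_dvd_of_le inf_le_left

end gour

end Cfsg.Agent.H354.Fac
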