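import Mathlib

/-!
# `3 × 3` matrices over `ZMod 2`: an element of order 7 (helper354, S3679)
-/

set_option autoImplicit false
set_option maxRecDepth 100000

namespace Cfsg.Agent.H354.Fac.MT

open Matrix

abbrev M3 : Type := Matrix (Fin 3) (Fin 3) (ZMod 2)

/-- companion matrix of `X ^ 3 + X + 1` -/
def g : M3 := !![0, 0, 1; 1, 0, 1; 0, 1, 0]

/-- its inverse -/
def gi : M3 := !![1, 1, 0; 0, 0, 1; 1, 0, 0]

/-- the Frobenius map -/
def c : M3 := !![1, 0, 0; 0, 0, 1; 0, 1, 1]

def ci : M3 := !![1, 0, 0; 0, 1, 1; 0, 1, 0]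

/-- `x gᵀ = g x` -/
def x : M3 := !![1, 0, 0; 0, 0, 1; 0, 1, 0]

def h : M3 := giᵀ

def hi : M3 := gᵀ

theorem g_gi : g * gi = 1 := by decide +kernel
theorem gi_g : gi * g = 1 := by decide +kernel
theorem g_seven : g ^ 7 = 1 := by decide +kernel
theorem g_ne : g ≠ 1 := by decide +kernel
theorem c_ci : c * ci = 1 := by decide +kernel
theorem ci_c : ci * c = 1 := by decide +kernel
theorem c_g : c * g = g ^ 2 * c := by decide +kernel
theorem x_x : x * x = 1 := by decide +kernel
theorem x_g : x * gᵀ = g * x := by decide +kernel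
theorem x_t : xᵀ = x := by decide +kernel

theorem fix_left : ∀ m : M3, g * m = m → m = 0 := by decide +kernel
theorem fix_right : ∀ m : M3, m * g = m → m = 0 := by decide +kernel
theorem int_gh : ∀ m : M3, m * h = g * m → m = 0 := by decide +kernel
theorem comm_g : ∀ m : M3, m * g = g * m → m = 0 ∨ ∃ i : Fin 7, m = g ^ (i : ℕ) := by decide +kernel

end Cfsg.Agent.H354.Fac.MT
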