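import Cfsg.Agent.H354.Fac.Basic

/-!
# `NoFac` from the order of `T` alone (helper354, S3679)

No non-abelian simple group `S` has `|S| ^ 2 ∣ |T|`.
-/

set_option autoImplicit false
set_option maxRecDepth 100000

namespace Cfsg.Agent.H354.Fac

open Cfsg
open Cfsg.Agent.OrdDiv
open Cfsg.Agent.H899.CG
open Cfsg.Agent.H257.El (Known)

variable (tab : OrderTable.{0}) (known : Known.{0}) {T : Type} [Group T]

include tab known

/-- `U4(2)`, `PSp4(3)` -/
theorem noFac_25920 (hn : Nat.card T = 25920) : NoFac T :=
  noFac_of_half tab known (m := 72) (d := 5) (l := [(2, 3), (3, 2)]) hn (by norm_num)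
    (by norm_num) (by decide +kernel) (by decide +kernel) (by decide +kernel)

/-- `L3(2)`, `L2(7)` -/
theorem noFac_168 (hn : Nat.card T = 168) : NoFac T :=
  noFac_of_half tab known (m := 2) (d := 42) (l := [(2, 1)]) hn (by norm_num)
    (by norm_num) (by decide +kernel) (by decide +kernel) (by decide +kernel)

/-- `L3(4)`, `L4(2)` -/
theorem noFac_20160 (hn : Nat.card T = 20160) : NoFac T :=
  noFac_of_half tab known (m := 24) (d := 35) (l := [(2, 3), (3, 1)]) hn (by norm_num)
    (by norm_num) (by decide +kernel) (by decide +kernel) (by decide +kernel)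

/-- `L3(11)` -/
theorem noFac_212427600 (hn : Nat.card T = 212427600) : NoFac T :=
  noFac_of_half tab known (m := 220) (d := 4389) (l := [(2, 2), (5, 1), (11, 1)]) hn (by norm_num)
    (by norm_num) (by decide +kernel) (by decide +kernel) (by decide +kernel)

/-- `U3(3)` -/
theorem noFac_6048 (hn : Nat.card T = 6048) : NoFac T :=
  noFac_of_half tab known (m := 12) (d := 42) (l := [(2, 2), (3, 1)]) hn (by norm_num)
    (by norm_num) (by decide +kernel) (by decide +kernel) (by decide +kernel)

/-- `U4(3)` -/
theorem noFac_3265920 (hn : Nat.card T = 3265920) : NoFac T :=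
  noFac_of_half tab known (m := 216) (d := 70) (l := [(2, 3), (3, 3)]) hn (by norm_num)
    (by norm_num) (by decide +kernel) (by decide +kernel) (by decide +kernel)

/-- `U5(2)` -/
theorem noFac_13685760 (hn : Nat.card T = 13685760) : NoFac T :=
  noFac_of_half tab known (m := 288) (d := 165) (l := [(2, 5), (3, 2)]) hn (by norm_num)
    (by norm_num) (by decide +kernel) (by decide +kernel) (by decide +kernel)

/-- `U6(2)` -/
theorem noFac_9196830720 (hn : Nat.card T = 9196830720) : NoFac T :=
  noFac_of_half tab known (m := 3456) (d := 770) (l := [(2, 7), (3, 3)]) hn (by norm_num)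
    (by norm_num) (by decide +kernel) (by decide +kernel) (by decide +kernel)

/-- `Sp6(2)` -/
theorem noFac_1451520 (hn : Nat.card T = 1451520) : NoFac T :=
  noFac_of_half tab known (m := 144) (d := 70) (l := [(2, 4), (3, 2)]) hn (by norm_num)
    (by norm_num) (by decide +kernel) (by decide +kernel) (by decide +kernel)

/-- `O7(3)`, `PSp6(3)` -/
theorem noFac_4585351680 (hn : Nat.card T = 4585351680) : NoFac T :=
  noFac_of_half tab known (m := 1296) (d := 2730) (l := [(2, 4), (3, 4)]) hn (by norm_num)
    (by norm_num) (by decide +kernel) (by decide +kernel) (by decide +kernel)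

/-- `O8-(2)` -/
theorem noFac_197406720 (hn : Nat.card T = 197406720) : NoFac T :=
  noFac_of_half tab known (m := 576) (d := 595) (l := [(2, 6), (3, 2)]) hn (by norm_num)
    (by norm_num) (by decide +kernel) (by decide +kernel) (by decide +kernel)

end Cfsg.Agent.H354.Fac
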