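import Cfsg.Agent.H354.Fac.GD
import Cfsg.Agent.H354.Fac.Blk

/-!
# The data in `SL6(2)`, `Sp12(2)` (helper354, S3679)
-/

set_option autoImplicit false
set_option maxRecDepth 100000

namespace Cfsg.Agent.H354.Fac

open Matrix Subgroup MT

theorem J_eq : Matrix.J (Fin 6) (ZMod 2) = fromBlocks 0 1 1 0 := by
  rw [Matrix.J]
  congr 1
  ext i j
  rw [Matrix.neg_apply]
  exact ZMod.neg_eq_self_mod_two _

theorem mem_sp {z : M12} : z ∈ symplecticGroup (Fin 6) (ZMod 2) ↔
    z * fromBlocks 0 1 1 0 * zᵀ = fromBlocks 0 1 1 0 := by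
  rw [SymplecticGroup.mem_iff, J_eq]

theorem E_mem {a b a' b' : M3} (ha : a * a'ᵀ = 1) (hb : b * b'ᵀ = 1) :
    E a b a' b' ∈ symplecticGroup (Fin 6) (ZMod 2) := by
  have ha2 : a' * aᵀ = 1 := by rw [← transpose_transpose a', ← transpose_mul, ha, transpose_one]
  have hb2 : b' * bᵀ = 1 := by rw [← transpose_transpose b', ← transpose_mul, hb, transpose_one]
  rw [mem_sp, E, fromBlocks_transpose, fromBlocks_multiply, fromBlocks_multiply]
  simp only [mul_zero, zero_mul, add_zero, zero_add, mul_one, transpose_zero, D_t, D_mul, ha, hb, ha2, hb2, D_one]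

theorem s_mem : s12 ∈ symplecticGroup (Fin 6) (ZMod 2) := by
  rw [mem_sp, s12, fromBlocks_transpose, fromBlocks_multiply, fromBlocks_multiply]
  simp only [mul_zero, zero_mul, add_zero, zero_add, mul_one, transpose_zero, sw_t, sw_sw]

theorem x_x' : x * xᵀ = 1 := by decide +kernel

theorem m_mem : m12 ∈ symplecticGroup (Fin 6) (ZMod 2) := by
  rw [mem_sp, m12, fromBlocks_transpose, fromBlocks_multiply, fromBlocks_multiply]
  have h1 : D 1 0 + D 0 1 = 1 := by
    rw [← D_one, D, D, D, ← map_add, fromBlocks_add]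
    simp
  have h2 : D 0 1 + D 1 0 = 1 := by rw [add_comm, h1]
  simp only [mul_zero, zero_mul, add_zero, zero_add, mul_one, transpose_zero, transpose_one, D_t, D_mul, x_x', D_zero,
    h1, h2]

abbrev Sp12 : Type := symplecticGroup (Fin 6) (ZMod 2)

def aS : Sp12 := ⟨a12, E_mem (by decide +kernel) (by decide +kernel)⟩
def bS : Sp12 := ⟨b12, E_mem (by decide +kernel) (by decide +kernel)⟩
def sS : Sp12 := ⟨s12, s_mem⟩
def cS : Sp12 := ⟨c12, E_mem (by decide +kernel) (by decide +kernel)⟩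
def mS : Sp12 := ⟨m12, m_mem⟩

theorem conj_of {G : Type*} [Group G] {x y z : G} (h : x * y = z * x) : x * y * x⁻¹ = z := by
  rw [h, mul_inv_cancel_right]

theorem gd_sp : GD Sp12 7 3 := by
  have h7 : Nat.Prime 7 := by norm_num
  have hp : Fact (Nat.Prime 7) := ⟨h7⟩
  have ha : orderOf aS = 7 := by
    apply orderOf_eq_prime
    · exact Subtype.ext a_seven
    · intro h
      exact a_ne (congrArg Subtype.val h)
  have hb : orderOf bS = 7 := by
    apply orderOf_eq_prime
    · exact Subtype.ext b_seven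
    · intro h
      exact b_ne 0 (by rw [pow_zero]; exact congrArg Subtype.val h)
  have hmb : mS * bS * mS⁻¹ = bS⁻¹ := by
    apply conj_of
    have h1 : bS * (⟨E 1 gi 1 hi, E_mem (by decide +kernel) (by decide +kernel)⟩ : Sp12) = 1 := by
      apply Subtype.ext
      change b12 * E 1 gi 1 hi = 1
      rw [b12, E_mul, mul_one, show g * gi = 1 by decide +kernel, show h * hi = 1 by decide +kernel, E_one]
    have h2 : bS⁻¹ = (⟨E 1 gi 1 hi, E_mem (by decide +kernel) (by decide +kernel)⟩ : Sp12) :=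
      inv_eq_of_mul_eq_one_right h1
    rw [h2]
    exact Subtype.ext m_b
  have hcb : cS * bS * cS⁻¹ = bS ^ 2 := conj_of (Subtype.ext c_b)
  have hca : cS * aS * cS⁻¹ = aS := conj_of (Subtype.ext c_a)
  have hma : mS * aS * mS⁻¹ = aS := conj_of (Subtype.ext m_a)
  refine ⟨aS, bS, sS, mS * (cS * cS), ⟨ha, hb, Subtype.ext a_b, ?_⟩, ?_, ?_, ?_, ?_, by norm_num⟩
  · intro h
    have h1 : bS ∈ Submonoid.powers aS := mem_powers_iff_mem_zpowers.2 h
    obtain ⟨i, hi⟩ := Submonoid.mem_powers_iff _ _ |>.1 h1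
    exact b_ne i (congrArg Subtype.val hi.symm)
  · apply conj_of
    exact Subtype.ext (s_E g 1 h 1)
  · calc mS * (cS * cS) * aS * (mS * (cS * cS))⁻¹ = mS * (cS * (cS * aS * cS⁻¹) * cS⁻¹) * mS⁻¹ := by group
      _ = aS := by rw [hca, hca, hma]
  · have h1 : cS * bS ^ 2 * cS⁻¹ = bS ^ 4 := by
      rw [← conj_pow, hcb, ← pow_mul]
    calc mS * (cS * cS) * bS * (mS * (cS * cS))⁻¹ = mS * (cS * (cS * bS * cS⁻¹) * cS⁻¹) * mS⁻¹ := by group
      _ = (mS * bS * mS⁻¹) ^ 4 := by rw [hcb, h1, conj_pow]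
      _ = bS ^ (3 : ℤ) := by
        rw [hmb, inv_pow, inv_eq_iff_mul_eq_one]
        have h2 : bS ^ 7 = 1 := Subtype.ext b_seven
        rw [show (3 : ℤ) = ((3 : ℕ) : ℤ) by rfl, zpow_natCast, ← pow_add]
        exact h2
  · intro z hza hzb
    obtain ⟨i, j, hij⟩ := cent_sp (z := (z : M12)) (congrArg Subtype.val hza) (congrArg Subtype.val hzb)
      (mem_sp.1 z.2)
    have h1 : z = aS ^ i * bS ^ j := Subtype.ext hij
    rw [h1]
    exact mul_mem (mem_sup_left (pow_mem (mem_zpowers _) _)) (mem_sup_right (pow_mem (mem_zpowers _) _))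

theorem gd_psp (F : Type) [Field F] [Fintype F] (hF : Fintype.card F = 2) : GD (PSp 6 F) 7 3 :=
  (gd_sp.quot (by norm_num)).congr
    (LieClassical.FieldTransfer.pspCongr 6 (ZMod.ringEquivOfPrime F Nat.prime_two hF))

end Cfsg.Agent.H354.Fac
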